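import Cfsg.Agent.H887.DS.SixFive

/-!
# `SL(5, F)` in dimension 10 over the same field: the matrix coefficient over `F` (helper833, task 6155)

`coef5` : `Core P`, `Soc P = PSL(5, F)`, `P ≤ GL(10, F)`: there are a surjection `φ : SL(5, F) → P` with central kernel,
a vector `v` and a functional `ψ` with `ψ (φ g v) = g₀₀ g₁₁ - g₀₁ g₁₀`.
-/

set_option autoImplicit false
set_option linter.unusedSectionVars false
set_option linter.style.haveILetI false

namespace Cfsg.Agent.H833.TenFive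

open Matrix CoxeterSystem Cfsg.Agent.ChevalleyStructure.CoxeterGeom Cfsg.Agent.Tits.Roots Cfsg.Agent.Tits.Core
  Cfsg.Agent.Tits.Exchange Cfsg.Agent.Nodes.Reps Cfsg.Agent.Nodes.BNOf Cfsg.Agent.Nodes.StabComb
  Cfsg.Agent.Nodes.Bruhat Cfsg.Agent.Nodes.OppDec Cfsg.Agent.Nodes.LeviDec Cfsg.Agent.KFacts.RgdOpp
  Cfsg.Agent.Omega.CR Cfsg.Agent.Omega.FOne.Lift.Sd Cfsg.Agent.Nodes.RootsA Cfsg.Agent.Nodes.RGDTypeA
open Cfsg.Agent.LieRecognition.BNCox (cA cA_apply)
open Cfsg.Agent.TitsThree.KSideA (tv tv_of_ne tv_add tv_zero tv_neg tv_comm tv_commute)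
open Cfsg.Agent.H905.Md Module Cfsg.Agent.H911 Cfsg.Agent.H887.DS
open Cfsg Cfsg.Geo Cfsg.Agent.H67
open Cfsg.Agent.H915.LD (Core Soc tr SD Fr Cj)

universe u

section rep4

variable {E : Type*} [Field E] [Finite E] {l : ℕ} {W : Type*} [Group W] [Finite W] {cs : CoxeterSystem (cA l) W}
  {A : Fin l → Fin l → ℤ} {h : IsCartan (cA l) A} (p : ℕ) [hp : Fact p.Prime] [hEp : CharP E p]
  {k V : Type*} [Field k] [IsAlgClosed k] [CharP k p] [AddCommGroup V] [Module k V] [FiniteDimensional k V] [Nontrivial V]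
  {ρ : SpecialLinearGroup (Fin (l + 1)) E →* Module.End k V}
  (ι : E →+* k)
  (hirr : ∀ L : Submodule k V, Ivt ρ (GG cs h (T (Fin (l + 1)) E) (X E)) L → L = ⊥ ∨ L = ⊤)
include hirr

include p in
/-- **The matrix coefficient** of a given pair. -/
theorem coef4_of {o z : Fin (l + 1)} (hl : 3 ≤ l) (ho : o.val = 1) (hz : z.val + 1 = l) {v : V}
    (hv : v ∈ D cs h (X E) ρ) (hv0 : v ≠ 0) {φ : Module.Dual k V} (hφ : φ ∈ fx (dualRep ρ) (UN cs h (X E)))
    (h4 : φ v = 1) :
    ∃ e : Fin l → ℕ, (∀ i, e i < Nat.card E) ∧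
      (∀ i, i ∈ Jx cs h (X E) ρ ↔ e i = 0) ∧ ∀ a b c d : ℕ, (∀ i : Fin l, e i = (if i.val = 0 then a else 0) +
    (if i.val = 1 then b else 0) + (if i.val + 2 = l then c else 0) + (if i.val + 1 = l then d else 0)) →
      ∀ g, φ (ρ g v) = xf ι o z a b c d g := by
  have R := rgd cs h (F := E) (p := p)
  obtain ⟨v', hv', hv0', χ, hχ'⟩ := exists_chi R hirr slT_comm
  have hsp := fx_eq_span R ρ hirr hv' hv0' hχ'
  have hχ : ∀ t ∈ T (Fin (l + 1)) E, ρ t v = χ t • v := by
    intro t ht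
    have h1 : v ∈ Submodule.span k {v'} := by rw [← hsp]; exact hv
    obtain ⟨c, rfl⟩ := Submodule.mem_span_singleton.1 h1
    rw [map_smul, hχ' t ht, smul_comm]
  obtain ⟨e, he1, he2, he3⟩ := exists_exp ι hv0 hv hχ
  refine ⟨e, he1, he2, ?_⟩
  intro a b c d he
  refine master_gen p hirr (Ξ := xf ι o z a b c d) (xf_one hl ho hz) (fun x y hxy t g => xf_mul_tv hl ho hz hxy t g)
    (fun x y hxy t g => xf_tv_mul hl ho hz hxy t g) (fun t ht g => xf_T_mul hl ho hz ht g)
    (fun t ht g => xf_mul_T hl ho hz ht g) ?_ ?_ hv ?_ hφ h4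
  · intro i hi g
    have h1 := (he2 i).1 hi
    rw [he i] at h1
    refine xf_ns_mul hl ho hz ?_ ?_ ?_ ?_ g
    · intro h2
      rw [if_pos h2] at h1
      omega
    · intro h2
      rw [if_pos h2] at h1
      omega
    · intro h2
      rw [if_pos h2] at h1
      omega
    · intro h2
      rw [if_pos h2] at h1
      omega
  · intro g σ hm hne i hi c'
    refine xf_mono hl ho hz hm hne ?_ c'
    have h1 := mt (he2 i).2 hi
    rw [he i] at h1
    by_contra hcon
    push Not at hcon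
    obtain ⟨k1, k2, k3, k4⟩ := hcon
    apply h1
    have g1 : (if i.val = 0 then a else 0) = 0 := by
      split_ifs with h2
      · exact k1 h2
      · rfl
    have g2 : (if i.val = 1 then b else 0) = 0 := by
      split_ifs with h2
      · exact k2 h2
      · rfl
    have g3 : (if i.val + 2 = l then c else 0) = 0 := by
      split_ifs with h2
      · exact k3 h2
      · rfl
    have g4 : (if i.val + 1 = l then d else 0) = 0 := by
      split_ifs with h2
      · exact k4 h2
      · rfl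
    rw [g1, g2, g3, g4]
  · refine he3 _ (xf_one hl ho hz) (fun t ht t' => xf_T_mul hl ho hz ht t') fun i s => ?_
    rw [xf_hs hl ho hz, he i]

end rep4

section base

variable {F : Type u} [Field F] {ι : Type} [Fintype ι] [DecidableEq ι] {G : Type*} [Group G]

/-- the representation over `F` -/
def fRep (φ : G →* GL ι F) : G →* Matrix ι ι F := (Units.coeHom (Matrix ι ι F)).comp φ

theorem fRep_apply (φ : G →* GL ι F) (g : G) : fRep φ g = (φ g : Matrix ι ι F) := rfl

/-- extension of scalars for vectors -/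
noncomputable def bv (v : ι → F) : ι → AlgebraicClosure F := fun i => algebraMap F (AlgebraicClosure F) (v i)

theorem bv_ne {v : ι → F} (hv : v ≠ 0) : bv v ≠ 0 := by
  intro h0
  apply hv
  funext i
  have h1 : algebraMap F (AlgebraicClosure F) (v i) = 0 := congrFun h0 i
  exact (map_eq_zero _).1 h1

theorem bv_lin (φ : G →* GL ι F) (g : G) (v : ι → F) : lin (acRep φ) g (bv v) = bv (lin (fRep φ) g v) := by
  rw [lin_apply, lin_apply, acRep_apply, fRep_apply]
  funext i
  simp only [bv, mulVec, dotProduct, Matrix.map_apply, map_sum, map_mul]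

/-- extension of scalars for functionals -/
noncomputable def bd (ψ : Module.Dual F (ι → F)) : Module.Dual (AlgebraicClosure F) (ι → AlgebraicClosure F) :=
  ∑ i, algebraMap F (AlgebraicClosure F) (ψ (Pi.single i 1)) • LinearMap.proj i

theorem bd_apply (ψ : Module.Dual F (ι → F)) (x : ι → AlgebraicClosure F) :
    bd ψ x = ∑ i, algebraMap F (AlgebraicClosure F) (ψ (Pi.single i 1)) * x i := by
  simp only [bd, LinearMap.coe_sum, Finset.sum_apply, LinearMap.smul_apply, LinearMap.proj_apply, smul_eq_mul]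

theorem bd_bv (ψ : Module.Dual F (ι → F)) (v : ι → F) : bd ψ (bv v) = algebraMap F (AlgebraicClosure F) (ψ v) := by
  rw [bd_apply]
  have h1 : v = ∑ i, v i • (Pi.single i 1 : ι → F) := by
    conv_lhs => rw [← Finset.univ_sum_single v]
    refine Finset.sum_congr rfl fun i _ => ?_
    rw [← Pi.single_smul, smul_eq_mul, mul_one]
  conv_rhs => rw [h1]
  rw [map_sum, map_sum]
  refine Finset.sum_congr rfl fun i _ => ?_
  rw [map_smul, smul_eq_mul, map_mul, mul_comm]
  rfl

theorem bv_single (i : ι) : bv (Pi.single i (1 : F)) = Pi.single i 1 := by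
  funext j
  unfold bv
  by_cases h : j = i
  · subst h; simp
  · simp [h]

theorem dual_ext {k : Type*} [Field k] {f g : Module.Dual k (ι → k)} (h : ∀ i, f (Pi.single i 1) = g (Pi.single i 1)) :
    f = g := by
  refine LinearMap.pi_ext' fun i => ?_
  ext
  exact h i

theorem bd_fx {φ : G →* GL ι F} {ψ : Module.Dual F (ι → F)} {B : Subgroup G} (hψ : ψ ∈ fx (dualRep (lin (fRep φ))) B) :
    bd ψ ∈ fx (dualRep (lin (acRep φ))) B := by
  rw [mem_fx_dual] at hψ ⊢
  intro b hb x
  have h1 : (bd ψ).comp (lin (acRep φ) b) = bd ψ := by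
    apply dual_ext
    intro i
    rw [LinearMap.comp_apply, ← bv_single, bv_lin, bd_bv, bd_bv, hψ b hb]
  exact congrArg (fun f : Module.Dual (AlgebraicClosure F) (ι → AlgebraicClosure F) => f x) h1

theorem fRep_irr {P : Subgroup (GL ι F)} {φ : G →* GL ι F} (hφ : φ.range = P)
    (hP : ActsAbsolutelyIrreducibly (matrixSet P)) (L : Submodule F (ι → F)) (hL : ∀ g, ∀ w ∈ L, lin (fRep φ) g w ∈ L) :
    L = ⊥ ∨ L = ⊤ := by
  apply hP.1
  rintro _ ⟨g, hg, rfl⟩
  rw [SetLike.mem_coe, ← hφ] at hg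
  obtain ⟨y, rfl⟩ := hg
  rintro _ ⟨w, hw, rfl⟩
  exact hL y w hw

end base

section aut

variable {F : Type u} [Field F] {n : Type} [Fintype n] [DecidableEq n]

/-- the automorphism of a special linear group given by a field automorphism -/
def slField (σ : F ≃+* F) : SpecialLinearGroup n F ≃* SpecialLinearGroup n F where
  toFun := SpecialLinearGroup.map σ.toRingHom
  invFun := SpecialLinearGroup.map σ.symm.toRingHom
  left_inv g := by
    ext i j
    exact σ.symm_apply_apply _
  right_inv g := by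
    ext i j
    exact σ.apply_symm_apply _
  map_mul' := map_mul _

theorem slField_apply (σ : F ≃+* F) (g : SpecialLinearGroup n F) (i j : n) : (slField σ g).1 i j = σ (g.1 i j) := rfl

/-- inverse transpose -/
def slT (g : SpecialLinearGroup n F) : SpecialLinearGroup n F := ⟨(g⁻¹).1ᵀ, by rw [det_transpose]; exact (g⁻¹).2⟩

theorem slT_inv (g : SpecialLinearGroup n F) : ((slT g)⁻¹).1 = g.1ᵀ := by
  have h1 : ((slT g)⁻¹).1 = adjugate ((adjugate g.1)ᵀ) := rfl
  have h2 : ((g⁻¹)⁻¹).1 = adjugate (adjugate g.1) := rfl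
  rw [inv_inv] at h2
  rw [h1, ← adjugate_transpose, ← h2]

/-- inverse transpose -/
def slTi : SpecialLinearGroup n F ≃* SpecialLinearGroup n F where
  toFun := slT
  invFun := slT
  left_inv g := by
    apply Subtype.ext
    show ((slT g)⁻¹).1ᵀ = _
    rw [slT_inv, transpose_transpose]
  right_inv g := by
    apply Subtype.ext
    show ((slT g)⁻¹).1ᵀ = _
    rw [slT_inv, transpose_transpose]
  map_mul' a b := by
    apply Subtype.ext
    show ((a * b)⁻¹).1ᵀ = (a⁻¹).1ᵀ * (b⁻¹).1ᵀ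
    rw [_root_.mul_inv_rev, ← transpose_mul]
    rfl

theorem comp_range {G H : Type*} [Group G] [Group H] (φ : G →* H) (α : G ≃* G) :
    (φ.comp α.toMonoidHom).range = φ.range := by
  ext x
  constructor
  · rintro ⟨g, rfl⟩
    exact ⟨α g, rfl⟩
  · rintro ⟨g, rfl⟩
    exact ⟨α.symm g, congrArg φ (α.apply_symm_apply g)⟩

theorem comp_ker {G H : Type*} [Group G] [Group H] (φ : G →* H) (α : G ≃* G) {S : Subgroup H}
    (hk : ∀ g, φ g ∈ S → g ∈ Subgroup.center G) (g : G) (hg : φ.comp α.toMonoidHom g ∈ S) :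
    g ∈ Subgroup.center G := by
  have h1 : α g ∈ Subgroup.center G := hk _ hg
  rw [Subgroup.mem_center_iff] at h1 ⊢
  intro x
  apply α.injective
  rw [map_mul, map_mul]
  exact h1 (α x)

end aut

section main

variable {F : Type u} [Field F] [Finite F] {ι : Type} [Fintype ι] [DecidableEq ι] {P : Subgroup (GL ι F)}
  (p : ℕ) [hp : Fact p.Prime] [hFp : CharP F p]
include hp hFp

/-- the two coefficient functions -/
theorem coef5_pow (hC : Core P) (Φ : Soc P ≃* ProjectiveSpecialLinearGroup (Fin 5) F) (hn : Fintype.card ι = 10) :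
    ∃ φ : SpecialLinearGroup (Fin 5) F →* GL ι F, φ.range = P ∧
      (∀ g, φ g ∈ scalars ι F → g ∈ Subgroup.center (SpecialLinearGroup (Fin 5) F)) ∧
      ∃ (v : ι → F) (ψ : Module.Dual F (ι → F)) (i : ℕ),
        (∀ g, ψ ((φ g : Matrix ι ι F).mulVec v) = mn (l := 4) 0 1 g ^ p ^ i) ∨
        (∀ g, ψ ((φ g : Matrix ι ι F).mulVec v) = mn (l := 4) 3 4 g⁻¹ ^ p ^ i) := by
  obtain ⟨φ, hφ, hk, hpr⟩ := psl_cover (l := 4) p hC.perfect (by norm_num) (fun h => by omega) Φ
  haveI : Nonempty ι := Fintype.card_pos_iff.1 (by omega)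
  haveI : Finite (cA 4).Group := finite_W (cA 4).toCoxeterSystem (isCartan 4)
  haveI hchar : CharP (AlgebraicClosure F) p := charP_of_injective_algebraMap (algebraMap F _).injective p
  have R := Nodes.RGDTypeA.rgd (cA 4).toCoxeterSystem (isCartan 4) (F := F) (p := p)
  have hirr := ac_irr R (gg_eq_top (Nodes.RGDTypeA.G1_eq_top _ _)) slT_comm hφ hC.absIrred
  -- the vector and the functional over `F`
  have hirrF : ∀ L : Submodule F (ι → F), Ivt (lin (fRep φ)) (GG (cA 4).toCoxeterSystem (isCartan 4)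
      (T (Fin (4 + 1)) F) (X F)) L → L = ⊥ ∨ L = ⊤ := by
    intro L hL
    refine fRep_irr hφ hC.absIrred L fun g w hw => hL g ?_ w hw
    rw [gg_eq_top (Nodes.RGDTypeA.G1_eq_top _ _)]
    trivial
  obtain ⟨v₀, hv₀, hv₀0⟩ := (Submodule.ne_bot_iff _).1 (simp_fx R (lin (fRep φ)) hirrF).ne
  obtain ⟨ψ₀, hψ₀, hne₀⟩ := exists_pair_D R hirrF hv₀ hv₀0
  have hv : bv v₀ ∈ D (cA 4).toCoxeterSystem (isCartan 4) (X F) (lin (acRep φ)) := by
    intro b hb
    rw [bv_lin, hv₀ b hb]
  have hv0 := bv_ne hv₀0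
  have hψ : (algebraMap F (AlgebraicClosure F) (ψ₀ v₀))⁻¹ • bd ψ₀ ∈
      fx (dualRep (lin (acRep φ))) (UN (cA 4).toCoxeterSystem (isCartan 4) (X F)) :=
    Submodule.smul_mem _ _ (bd_fx hψ₀)
  have hne : algebraMap F (AlgebraicClosure F) (ψ₀ v₀) ≠ 0 := (map_ne_zero _).2 hne₀
  have h4 : ((algebraMap F (AlgebraicClosure F) (ψ₀ v₀))⁻¹ • bd ψ₀) (bv v₀) = 1 := by
    rw [LinearMap.smul_apply, bd_bv, smul_eq_mul, inv_mul_cancel₀ hne]
  have ho : (1 : Fin (4 + 1)).val = 1 := rfl
  have hz : (3 : Fin (4 + 1)).val + 1 = 4 := rfl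
  obtain ⟨e, he, heJ, hf⟩ := coef4_of (cs := (cA 4).toCoxeterSystem) (h := isCartan 4) p
    (ρ := lin (acRep φ)) (algebraMap F (AlgebraicClosure F)) hirr (o := 1) (z := 3) (by norm_num) ho hz hv hv0 hψ h4
  rcases sl5 (cs := (cA 4).toCoxeterSystem) (h := isCartan 4) p
    (ρ := lin (acRep φ)) hirr (algebraMap F (AlgebraicClosure F)) (by rw [Module.finrank_fintype_fun_eq_card]; omega)
    (by rw [Module.finrank_fintype_fun_eq_card]; omega) with ⟨-, i₀, hi₀, hJ⟩ | h
  · have hi : i₀ ∉ Jx (cA 4).toCoxeterSystem (isCartan 4) (X F) (lin (acRep φ)) := (hJ i₀).2 rfl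
    have hD := finrank_D R hirr slT_comm
    have hLe : finrank (AlgebraicClosure F) (Le (cA 4).toCoxeterSystem (isCartan 4) (T (Fin (4 + 1)) F) (X F)
        (lin (acRep φ)) {i₀}) ≤ 2 := by
      have h1 := dim_ge_A R hirr hi
      have h3 := finrank_Io R hirr i₀
      rw [hD] at h1 h3
      rw [Module.finrank_fintype_fun_eq_card, hn] at h1
      have c52 : Nat.choose (4 + 1) 2 = 10 := rfl
      have c53 : Nat.choose (4 + 1) (i₀.val + 1) = 10 := by rcases hi₀ with rfl | rfl <;> rfl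
      rw [c52, c53] at h1
      omega
    have hne : e i₀ ≠ 0 := fun h0 => hi ((heJ i₀).2 h0)
    have key : (Ds p (e i₀)).card ≤ 2 → ∃ i, e i₀ = p ^ i := by
      intro h2
      rcases Ds_small hp.out (e i₀) (by omega) (by omega) with ⟨r, i, hr1, hr2, h3, h4⟩ | ⟨-, -, -, -, h3⟩
      · obtain rfl : r = 1 := by omega
        exact ⟨i, by rw [h3, one_mul]⟩
      · omega
    have h0J : ∀ i, i ≠ i₀ → e i = 0 := by
      intro i hii
      rw [← heJ]
      by_contra hcon
      exact hii ((hJ i).1 hcon)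
    -- descent
    have desc : ∀ g, ((algebraMap F (AlgebraicClosure F) (ψ₀ v₀))⁻¹ • bd ψ₀) (lin (acRep φ) g (bv v₀)) =
        algebraMap F (AlgebraicClosure F) (((ψ₀ v₀)⁻¹ • ψ₀) ((φ g : Matrix ι ι F).mulVec v₀)) := by
      intro g
      rw [bv_lin, LinearMap.smul_apply, bd_bv, smul_eq_mul, LinearMap.smul_apply, smul_eq_mul, map_mul, map_inv₀]
      rfl
    have hsc : ∀ g, φ g ∈ scalars ι F → g ∈ Subgroup.center (SpecialLinearGroup (Fin 5) F) := by
      intro g hg
      obtain ⟨hgP, e1⟩ := hpr g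
      have e2 : prj Φ ⟨φ g, hgP⟩ = 1 := by
        rw [← MonoidHom.mem_ker, prj_ker, Subgroup.mem_subgroupOf]
        exact hg
      rw [e2] at e1
      exact (QuotientGroup.eq_one_iff (N := Subgroup.center (SpecialLinearGroup (Fin 5) F)) g).1 e1.symm
    refine ⟨φ, hφ, hsc, v₀, (ψ₀ v₀)⁻¹ • ψ₀, ?_⟩
    rcases hi₀ with rfl | rfl
    · have hf' := hf 0 (e 1) 0 0 (by
        intro i
        fin_cases i
        · simp [h0J 0 (by decide)]
        · simp
        · simp [h0J 2 (by decide)]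
        · simp [h0J 3 (by decide)])
      obtain ⟨i, hi'⟩ := key ((Ds_le_Le_one (algebraMap F (AlgebraicClosure F)) (by norm_num) ho hz p hv hf' (he 1) rfl).trans hLe)
      refine ⟨i, Or.inl fun g => ?_⟩
      apply (algebraMap F (AlgebraicClosure F)).injective
      rw [← desc, hf', hi']
      unfold xf xi
      rw [pow_zero, pow_zero, pow_zero, map_pow]
      ring
    · have hf' := hf 0 0 (e 2) 0 (by
        intro i
        fin_cases i
        · simp [h0J 0 (by decide)]
        · simp [h0J 1 (by decide)]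
        · simp
        · simp [h0J 3 (by decide)])
      obtain ⟨i, hi'⟩ := key ((Ds_le_Le_pen (algebraMap F (AlgebraicClosure F)) (by norm_num) ho hz p hv hf' (he 2) rfl).trans hLe)
      refine ⟨i, Or.inr fun g => ?_⟩
      apply (algebraMap F (AlgebraicClosure F)).injective
      rw [← desc, hf', hi']
      unfold xf xi
      rw [pow_zero, pow_zero, pow_zero, map_pow]
      have hl : (Fin.last 4 : Fin (4 + 1)) = 4 := rfl
      rw [hl]
      ring
  · rw [Module.finrank_fintype_fun_eq_card] at h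
    omega

/-- **The coefficient function.** -/
theorem coef5 (hC : Core P) (Φ : Soc P ≃* ProjectiveSpecialLinearGroup (Fin 5) F) (hn : Fintype.card ι = 10) :
    ∃ φ : SpecialLinearGroup (Fin 5) F →* GL ι F, φ.range = P ∧
      (∀ g, φ g ∈ scalars ι F → g ∈ Subgroup.center (SpecialLinearGroup (Fin 5) F)) ∧
      ∃ (v : ι → F) (ψ : Module.Dual F (ι → F)),
        ∀ g, ψ ((φ g : Matrix ι ι F).mulVec v) = g.1 0 0 * g.1 1 1 - g.1 0 1 * g.1 1 0 := by
  obtain ⟨φ, hφ, hk, v, ψ, i, h⟩ := coef5_pow p hC Φ hn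
  haveI : ExpChar F p := ExpChar.prime hp.out
  haveI : PerfectRing F p := PerfectField.toPerfectRing p
  let σ : F ≃+* F := (iterateFrobeniusEquiv F p i).symm
  have hσ : ∀ x : F, (σ x) ^ p ^ i = x := fun x => by
    have h1 := (iterateFrobeniusEquiv F p i).apply_symm_apply x
    rwa [iterateFrobeniusEquiv_apply] at h1
  have hmn : ∀ (x y : Fin 5) (g : SpecialLinearGroup (Fin 5) F), mn (l := 4) x y (slField σ g) ^ p ^ i = mn (l := 4) x y g := by
    intro x y g
    have h1 : mn (l := 4) x y (slField σ g) = σ (mn (l := 4) x y g) := by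
      unfold mn
      rw [map_sub, map_mul, map_mul]
      rfl
    rw [h1, hσ]
  rcases h with h | h
  · refine ⟨φ.comp (slField σ).toMonoidHom, (comp_range φ _).trans hφ, comp_ker φ _ hk, v, ψ, fun g => ?_⟩
    have h1 := h (slField σ g)
    rw [hmn] at h1
    exact h1
  · let w : SpecialLinearGroup (Fin (4 + 1)) F := ww F 1 3
    let α : SpecialLinearGroup (Fin 5) F ≃* SpecialLinearGroup (Fin 5) F :=
      (slTi.trans (MulAut.conj w)).trans (slField σ)
    refine ⟨φ.comp α.toMonoidHom, (comp_range φ _).trans hφ, comp_ker φ _ hk, v, ψ, fun g => ?_⟩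
    have h1 := h (α g)
    have h2 : (α g)⁻¹ = slField σ (w * (slT g)⁻¹ * w⁻¹) := by
      show (slField σ (w * slT g * w⁻¹))⁻¹ = _
      rw [← map_inv]
      congr 1
      group
    have ho : (1 : Fin (4 + 1)).val = 1 := rfl
    have hz : (3 : Fin (4 + 1)).val + 1 = 4 := rfl
    have hl : (4 : Fin (4 + 1)) = Fin.last 4 := rfl
    rw [h2, hmn, hl, ww_mn' (by norm_num) ho hz] at h1
    have h3 : mn (l := 4) 0 1 (slT g)⁻¹ = g.1 0 0 * g.1 1 1 - g.1 0 1 * g.1 1 0 := by
      unfold mn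
      rw [slT_inv]
      simp only [transpose_apply]
      ring
    rw [h3] at h1
    exact h1

end main

end Cfsg.Agent.H833.TenFive
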