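import Cfsg.Agent.H833.TenFive.Trv

/-!
# The functional of rank 4 (helper833, task 6155)

`f₀ (a ∧ b) = a₁ b₂ - a₂ b₁ + a₃ b₄ - a₄ b₃`; `contra` : a conjugate of `U` containing the transvections with centre `e₀`
contains an element fixing `e₀ ∧ e₁` and not `f₀`.
-/

set_option autoImplicit false
set_option linter.unusedSectionVars false

namespace Cfsg.Agent.H833.TenFive

open Matrix CoxeterSystem Cfsg.Agent.ChevalleyStructure.CoxeterGeom Cfsg.Agent.Tits.Roots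
  Cfsg.Agent.Nodes.BNOf Cfsg.Agent.Nodes.RootsA Cfsg.Agent.Nodes.RGDTypeA
open Cfsg.Agent.LieRecognition.BNCox (cA cA_apply)
open Cfsg.Agent.TitsThree.KSideA (tv tv_of_ne tv_add tv_zero tv_neg tv_comm tv_commute)
open Cfsg Cfsg.Geo

universe u

variable {F : Type u} [Field F] {ι : Type} [Fintype ι] [DecidableEq ι] {φ : SpecialLinearGroup (Fin 5) F →* GL ι F}
  (M : Wedge φ)

namespace Wedge

/-- the functional -/
def f₀ : Module.Dual F (ι → F) where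
  toFun w := M.L w 1 2 + M.L w 3 4
  map_add' x y := by
    rw [map_add, Matrix.add_apply, Matrix.add_apply]
    ring
  map_smul' c x := by
    rw [map_smul, Matrix.smul_apply, Matrix.smul_apply, smul_eq_mul, smul_eq_mul, smul_eq_mul, RingHom.id_apply]
    ring

theorem f₀_ω (a b : Fin 5 → F) : M.f₀ (M.ω a b) = (a 1 * b 2 - b 1 * a 2) + (a 3 * b 4 - b 3 * a 4) := by
  show M.L _ 1 2 + M.L _ 3 4 = _
  rw [M.Lω, wd_apply, wd_apply]

theorem f₀_v₀ : M.f₀ M.v₀ = 0 := by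
  rw [v₀, f₀_ω]
  simp [ee]

theorem f₀_ne : M.f₀ ≠ 0 := by
  intro h
  have h1 := congrArg (fun f : Module.Dual F (ι → F) => f (M.ω (ee 1) (ee 2))) h
  simp only [f₀_ω] at h1
  simp [ee] at h1

theorem f₀_inv {g : SpecialLinearGroup (Fin 5) F} (hg : ∀ a : Fin 5 → F, ∀ i : Fin 5, i ≠ 0 → (g.1 *ᵥ a) i = a i)
    (w : ι → F) : M.f₀ ((φ g : Matrix ι ι F) *ᵥ w) = M.f₀ w := by
  have h1 := M.spn (LinearMap.ker (M.f₀.comp (Matrix.toLin' (φ g : Matrix ι ι F)) - M.f₀)) (by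
    intro a b
    rw [LinearMap.mem_ker, LinearMap.sub_apply, LinearMap.comp_apply, toLin'_apply, φω, f₀_ω, f₀_ω,
      hg a 1 (by decide), hg a 2 (by decide), hg a 3 (by decide), hg a 4 (by decide),
      hg b 1 (by decide), hg b 2 (by decide), hg b 3 (by decide), hg b 4 (by decide), sub_self]) w
  rw [LinearMap.mem_ker, LinearMap.sub_apply, LinearMap.comp_apply, toLin'_apply, sub_eq_zero] at h1
  exact h1

theorem f₀_tv {b : Fin 5} (hb : (0 : Fin 5) ≠ b) (s : F) (w : ι → F) :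
    M.f₀ ((φ (tv 0 b s) : Matrix ι ι F) *ᵥ w) = M.f₀ w := by
  refine M.f₀_inv (fun a i hi => ?_) w
  rw [tv_mulVec hb, Pi.add_apply, Pi.smul_apply]
  simp [ee, hi]

theorem contra {g : SpecialLinearGroup (Fin 5) F} (h0 : ∀ j : Fin 5, j ≠ 0 → (g.1 *ᵥ ee 0) j = 0)
    (hτ : ∀ y ∈ UU F, (φ (g * y * g⁻¹) : Matrix ι ι F) *ᵥ M.v₀ = M.v₀ →
      ∀ w, M.f₀ ((φ (g * y * g⁻¹) : Matrix ι ι F) *ᵥ w) = M.f₀ w) : False := by
  set z : Fin 5 → F := g.1 *ᵥ ee 1 with hz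
  have key : ∀ h : Fin 5 → F, h 0 = 0 → h 1 = 0 → h ⬝ᵥ z = 0 → ∀ a b : Fin 5 → F,
      ((a 1 + (h ⬝ᵥ a) * z 1) * (b 2 + (h ⬝ᵥ b) * z 2) - (b 1 + (h ⬝ᵥ b) * z 1) * (a 2 + (h ⬝ᵥ a) * z 2)) +
      ((a 3 + (h ⬝ᵥ a) * z 3) * (b 4 + (h ⬝ᵥ b) * z 4) - (b 3 + (h ⬝ᵥ b) * z 3) * (a 4 + (h ⬝ᵥ a) * z 4)) =
      (a 1 * b 2 - b 1 * a 2) + (a 3 * b 4 - b 3 * a 4) := by
    intro h hh0 hh1 hhz a b
    set c : Fin 5 → F := h ᵥ* g.1 with hc
    have hcw : ∀ w : Fin 5 → F, c ⬝ᵥ w = h ⬝ᵥ (g.1 *ᵥ w) := fun w => by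
      rw [hc, dotProduct_mulVec]
    have hc0 : c 0 = 0 := by
      have h1 := hcw (ee 0)
      have h2 : h ⬝ᵥ (g.1 *ᵥ ee 0) = 0 := by
        rw [dotProduct, Fin.sum_univ_five, hh0, h0 1 (by decide), h0 2 (by decide), h0 3 (by decide),
          h0 4 (by decide)]
        ring
      rw [h2] at h1
      simpa [ee] using h1
    have hc1 : c 1 = 0 := by
      have h1 := hcw (ee 1)
      rw [← hz, hhz] at h1
      simpa [ee] using h1
    have hy : tv (1 : Fin 5) 2 (c 2) * tv 1 3 (c 3) * tv 1 4 (c 4) ∈ UU F :=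
      mul_mem (mul_mem (tv_mem_UU (by decide) _) (tv_mem_UU (by decide) _)) (tv_mem_UU (by decide) _)
    have hyw : ∀ w : Fin 5 → F, (tv (1 : Fin 5) 2 (c 2) * tv 1 3 (c 3) * tv 1 4 (c 4)).1 *ᵥ w = w + (c ⬝ᵥ w) • ee 1 := by
      intro w
      show ((tv (1 : Fin 5) 2 (c 2)).1 * (tv (1 : Fin 5) 3 (c 3)).1 * (tv (1 : Fin 5) 4 (c 4)).1) *ᵥ w = _
      rw [← mulVec_mulVec, ← mulVec_mulVec, tv_mulVec (by decide), tv_mulVec (by decide), tv_mulVec (by decide),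
        dotProduct, Fin.sum_univ_five, hc0, hc1]
      funext i
      simp [ee]
      ring
    set y := tv (1 : Fin 5) 2 (c 2) * tv 1 3 (c 3) * tv 1 4 (c 4) with hyd
    have hτw : ∀ w : Fin 5 → F, (g * y * g⁻¹).1 *ᵥ w = w + (h ⬝ᵥ w) • z := by
      intro w
      show (g.1 * y.1 * (g⁻¹).1) *ᵥ w = _
      have hgi : g.1 *ᵥ ((g⁻¹).1 *ᵥ w) = w := by
        rw [mulVec_mulVec]
        have h3 : g.1 * (g⁻¹).1 = 1 := congrArg Subtype.val (mul_inv_cancel g)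
        rw [h3, one_mulVec]
      rw [← mulVec_mulVec, ← mulVec_mulVec, hyw, mulVec_add, mulVec_smul, hcw, hgi]
    have hv : (φ (g * y * g⁻¹) : Matrix ι ι F) *ᵥ M.v₀ = M.v₀ := by
      rw [v₀, φω, hτw, hτw]
      have e0 : h ⬝ᵥ (ee 0 : Fin 5 → F) = 0 := by simp [ee, hh0]
      have e1 : h ⬝ᵥ (ee 1 : Fin 5 → F) = 0 := by simp [ee, hh1]
      rw [e0, e1, zero_smul, add_zero, add_zero]
    have h4 := hτ y hy hv (M.ω a b)
    rw [φω, hτw, hτw, f₀_ω, f₀_ω] at h4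
    simpa only [Pi.add_apply, Pi.smul_apply, smul_eq_mul] using h4
  have hz2 : z 2 = 0 := by
    by_contra hne
    have h1 := key ![0, 0, -z 3, z 2, 0] rfl rfl (by simp [dotProduct, Fin.sum_univ_five]; ring) (ee 3) (ee 1)
    simp [ee, dotProduct, Fin.sum_univ_five] at h1
    exact hne h1
  have hz4 : z 4 = 0 := by
    have h1 := key ![0, 0, 1, 0, 0] rfl rfl (by simp [dotProduct, Fin.sum_univ_five, hz2]) (ee 2) (ee 3)
    simp [ee, dotProduct, Fin.sum_univ_five] at h1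
    exact h1
  have hz3 : z 3 = 0 := by
    have h1 := key ![0, 0, 1, 0, 0] rfl rfl (by simp [dotProduct, Fin.sum_univ_five, hz2]) (ee 2) (ee 4)
    simp [ee, dotProduct, Fin.sum_univ_five] at h1
    exact h1
  have hz1 : z 1 = 0 := by
    have h1 := key ![0, 0, 0, 1, 0] rfl rfl (by simp [dotProduct, Fin.sum_univ_five, hz3]) (ee 3) (ee 2)
    simp [ee, dotProduct, Fin.sum_univ_five] at h1
    exact h1
  have hinv : ∀ w : Fin 5 → F, (g⁻¹).1 *ᵥ (g.1 *ᵥ w) = w := by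
    intro w
    rw [mulVec_mulVec]
    have h3 : (g⁻¹).1 * g.1 = 1 := congrArg Subtype.val (inv_mul_cancel g)
    rw [h3, one_mulVec]
  have e0 : g.1 *ᵥ ee 0 = (g.1 *ᵥ ee 0) 0 • ee 0 := by
    funext i
    by_cases hi : i = 0
    · subst hi; simp [ee]
    · rw [h0 i hi]; simp [ee, hi]
  have hzi : ∀ i : Fin 5, i ≠ 0 → z i = 0 := by
    intro i hi
    fin_cases i
    · exact absurd rfl hi
    · exact hz1
    · exact hz2
    · exact hz3
    · exact hz4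
  have e1 : z = z 0 • ee 0 := by
    funext i
    by_cases hi : i = 0
    · subst hi; simp [ee]
    · rw [hzi i hi]; simp [ee, hi]
  have k0 := hinv (ee 0)
  have k1 := hinv (ee 1)
  rw [e0, mulVec_smul] at k0
  rw [← hz, e1, mulVec_smul] at k1
  have k2 : (g.1 *ᵥ ee 0) 0 • (ee 1 : Fin 5 → F) = z 0 • ee 0 := by
    rw [← k1]
    conv_rhs => rw [← k0]
    rw [smul_comm]
  have k3 := congrFun k2 1
  simp [ee] at k3
  have k4 := congrFun k0 0
  have k5 : (g.1 *ᵥ ee 0) 0 = 0 := by simpa [ee] using k3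
  rw [k5] at k4
  simp [ee] at k4

end Wedge

end Cfsg.Agent.H833.TenFive
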