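import Cfsg.Agent.H833.TenFive.ParJ
import Cfsg.Agent.H419.EP.Soc
import Cfsg.Agent.KFacts.RgdFixU

/-!
# The cover of the socle (helper833, task 6155)

`m : Model Q S`, `P` the residual core of `m.hat A`, `φ : Y → GL(ι, F)` with image `P`: `psi : Y → Q`, its image `N` is
the simple socle of `A`. `cent_U` : an element of `m.hat A` commuting with `φ(U)` is `φ(u)` times a scalar, if the
simple root groups are abelian.
-/

set_option autoImplicit false
set_option linter.unusedSectionVars false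

namespace Cfsg.Agent.H833.TenFive

open CoxeterSystem Cfsg.Agent.ChevalleyStructure.CoxeterGeom Cfsg.Agent.Tits.Roots
  Cfsg.Agent.Nodes.Reps Cfsg.Agent.Nodes.BNOf Cfsg.Agent.Nodes.Bruhat Cfsg.Agent.Nodes.RGDLib
open Cfsg.Agent.H419.EP

section cover

variable {Q : Type*} [Group Q] {ι : Type} [Fintype ι] [DecidableEq ι] {F : Type*} [Field F]
  {S : Subgroup (GL ι F)} (m : Model Q S) {A : Subgroup Q} {P : Subgroup (GL ι F)}
  (hP : Geo.IsResidualCore (m.hat A) P) {Y : Type*} [Group Y] (φ : Y →* GL ι F) (hφ : φ.range = P)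

include m hP hφ in
theorem mem_S (g : Y) : φ g ∈ S := m.hat_le A (hP.le (hφ ▸ (⟨g, rfl⟩ : φ g ∈ φ.range)))

/-- the map to `Q` -/
def psi : Y →* Q :=
  m.π.comp (φ.codRestrict S fun g => m.hat_le A (hP.le (hφ ▸ (⟨g, rfl⟩ : φ g ∈ φ.range))))

variable {m hP φ hφ}

theorem psi_apply (g : Y) (hg : φ g ∈ S) : psi m hP φ hφ g = m.π ⟨φ g, hg⟩ := rfl

theorem psi_eq_one {g : Y} (h : psi m hP φ hφ g = 1) : φ g ∈ Geo.scalars ι F :=
  (m.ker ⟨φ g, mem_S m hP φ hφ g⟩).1 h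

variable (m hP φ hφ)

theorem psi_mem (g : Y) : psi m hP φ hφ g ∈ A :=
  (m.mem_hat_iff ⟨φ g, mem_S m hP φ hφ g⟩).1 (hP.le (hφ ▸ (⟨g, rfl⟩ : φ g ∈ φ.range)))

/-- the socle -/
theorem psi_soc : H839.EP.Soc A (psi m hP φ hφ).range := by
  refine ⟨?_, ?_, ?_⟩
  · rintro _ ⟨g, rfl⟩
    exact psi_mem m hP φ hφ g
  · rintro a ha _ ⟨g, rfl⟩
    obtain ⟨s, rfl⟩ := m.surj a
    have hs : (s : GL ι F) ∈ m.hat A := (m.mem_hat_iff s).2 ha
    have h1 : (s : GL ι F) * φ g * (s : GL ι F)⁻¹ ∈ P := hP.normal _ hs _ (hφ ▸ ⟨g, rfl⟩)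
    rw [← hφ] at h1
    obtain ⟨g', e⟩ := h1
    refine ⟨g', ?_⟩
    rw [psi_apply g' (mem_S m hP φ hφ g'), psi_apply g (mem_S m hP φ hφ g),
      ← map_mul, ← map_inv, ← map_mul]
    congr 1
    exact Subtype.ext e
  · intro a ha hc
    obtain ⟨s, rfl⟩ := m.surj a
    have hs : (s : GL ι F) ∈ m.hat A := (m.mem_hat_iff s).2 ha
    rw [m.ker]
    apply hP.centralizer_scalar _ hs
    intro x hx
    rw [← hφ] at hx
    obtain ⟨g, rfl⟩ := hx
    have h1 := hc (psi m hP φ hφ g) ⟨g, rfl⟩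
    have hg := mem_S m hP φ hφ g
    have h2 : m.π (s * ⟨φ g, hg⟩ * s⁻¹ * ⟨φ g, hg⟩⁻¹) = 1 := by
      rw [map_mul, map_mul, map_mul, map_inv, map_inv]
      rw [psi_apply g hg] at h1
      rw [h1]
      group
    exact (m.ker _).1 h2

/-- the range is `P` modulo scalars -/
theorem psi_equiv : Nonempty ((P ⧸ (Geo.scalars ι F).subgroupOf P) ≃* (psi m hP φ hφ).range) := by
  have hPS : P ≤ S := hP.le.trans (m.hat_le A)
  let f : P →* Q := m.π.comp (Subgroup.inclusion hPS)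
  have hf : ∀ p : P, f p = m.π ⟨p, hPS p.2⟩ := fun p => rfl
  have hker : f.ker = (Geo.scalars ι F).subgroupOf P := by
    ext p
    rw [MonoidHom.mem_ker, hf, m.ker]
    rfl
  have hr : f.range = (psi m hP φ hφ).range := by
    ext q
    constructor
    · rintro ⟨⟨p, hp⟩, rfl⟩
      have hp' := hp
      rw [← hφ] at hp'
      obtain ⟨g, rfl⟩ := hp'
      exact ⟨g, rfl⟩
    · rintro ⟨g, rfl⟩
      exact ⟨⟨φ g, hφ ▸ ⟨g, rfl⟩⟩, rfl⟩
  exact ⟨((QuotientGroup.quotientMulEquivOfEq hker).symm.trans (QuotientGroup.quotientKerEquivRange f)).trans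
    (MulEquiv.subgroupCongr hr)⟩

theorem psi_simple : IsSimpleGroup (psi m hP φ hφ).range := by
  obtain ⟨e⟩ := psi_equiv m hP φ hφ
  have := hP.simple
  exact e.symm.isSimpleGroup

theorem psi_nonab : ∃ a b : (psi m hP φ hφ).range, a * b ≠ b * a := by
  obtain ⟨e⟩ := psi_equiv m hP φ hφ
  by_contra hcon
  push Not at hcon
  apply hP.nonabelian
  refine ⟨⟨fun a b => ?_⟩⟩
  apply e.injective
  rw [map_mul, map_mul]
  exact hcon _ _

end cover

theorem Sup_map {I Y Y' : Type*} [Group Y] [Group Y'] (X : (I → ℤ) → Subgroup Y) (S : Set (I → ℤ)) (f : Y →* Y') :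
    RGD.Sup (fun x => (X x).map f) S = (RGD.Sup X S).map f := by
  unfold RGD.Sup
  rw [Subgroup.map_iSup]

section cent

variable {Q : Type*} [Group Q] {ι : Type} [Fintype ι] [DecidableEq ι] {F : Type*} [Field F]
  {S : Subgroup (GL ι F)} (m : Model Q S) {A : Subgroup Q} {P : Subgroup (GL ι F)}
  (hP : Geo.IsResidualCore (m.hat A) P) {Y : Type*} [Group Y] [Finite Y] (φ : Y →* GL ι F) (hφ : φ.range = P)
  (hsc : ∀ g, φ g ∈ Geo.scalars ι F → g ∈ Subgroup.center Y)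
  {I W : Type*} [Fintype I] [DecidableEq I] [Group W] [Finite W] {M : CoxeterMatrix I}
  {cs : CoxeterSystem M W} {C : I → I → ℤ} {hC : IsCartan M C} {p : ℕ} [Fact p.Prime] {T : Subgroup Y} {n : I → Y}
  {X : (I → ℤ) → Subgroup Y} (R : RGD cs hC p T n X) (hG1 : G1 cs hC X = ⊤)
include hP hφ hsc R

/-- the root group datum of the socle -/
theorem psi_rgd : RGD cs hC p (T.map (psi m hP φ hφ).rangeRestrict) (fun i => (psi m hP φ hφ).rangeRestrict (n i))
    (fun x => (X x).map (psi m hP φ hφ).rangeRestrict) := by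
  refine rgd_map_of_ker_le_center R _ fun g hg => hsc g ?_
  rw [MonoidHom.mem_ker] at hg
  exact psi_eq_one (congrArg Subtype.val hg)

include hG1

omit hsc R [Finite Y] [Finite W] [Fact p.Prime] in
theorem psi_G1 : RGD.Sup (fun x => (X x).map (psi m hP φ hφ).rangeRestrict) {x | IsRoot cs hC x} = ⊤ := by
  rw [Sup_map]
  have h1 : RGD.Sup X {x | IsRoot cs hC x} = ⊤ := hG1
  rw [h1, Subgroup.map_top_of_surjective _ (MonoidHom.rangeRestrict_surjective _)]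

/-- **the centraliser of `U` in `A`** -/
theorem cent_U (hab : ∀ i, ∀ a ∈ X (sr i), ∀ b ∈ X (sr i), a * b = b * a) {t : GL ι F} (ht : t ∈ m.hat A)
    (htU : ∀ u ∈ RGD.Sup X (RGD.Pos cs hC), φ u * t = t * φ u) :
    ∃ (u : Y) (c : F), (t : Matrix ι ι F) = c • (φ u : Matrix ι ι F) := by
  obtain ⟨htS, htA⟩ := m.mem_hat.1 ht
  have hs := psi_soc m hP φ hφ
  obtain ⟨z, hz, -, h1⟩ := KFacts.RgdFixU.exists_mem_centralizer (psi_rgd m hP φ hφ hsc R)
    (psi_G1 m hP φ hφ hG1) (by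
      rintro i _ ⟨a, ha, rfl⟩ _ ⟨b, hb, rfl⟩
      rw [← map_mul, ← map_mul, hab i a ha b hb]) (g := m.π ⟨t, htS⟩) (by
      rw [Subgroup.mem_normalizer_iff]
      intro y
      refine ⟨hs.nor _ htA y, fun hy => ?_⟩
      have h2 := hs.nor _ (A.inv_mem htA) _ hy
      have e : (m.π ⟨t, htS⟩)⁻¹ * (m.π ⟨t, htS⟩ * y * (m.π ⟨t, htS⟩)⁻¹) * ((m.π ⟨t, htS⟩)⁻¹)⁻¹ = y := by group
      rwa [e] at h2) (by
      intro x hx
      rw [Sup_map] at hx
      obtain ⟨u, hu, rfl⟩ := hx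
      show m.π ⟨t, htS⟩ * psi m hP φ hφ u = psi m hP φ hφ u * m.π ⟨t, htS⟩
      rw [psi_apply u (mem_S m hP φ hφ u), ← map_mul, ← map_mul]
      congr 1
      exact Subtype.ext (htU u hu).symm)
  have h2 : (z : Q)⁻¹ * m.π ⟨t, htS⟩ = 1 := by
    apply hs.cen
    · exact A.mul_mem (A.inv_mem (hs.le z.2)) htA
    · intro x hx
      exact h1 x hx
  obtain ⟨u, hu⟩ := z.2
  have h3 : m.π ⟨t, htS⟩ = m.π ⟨φ u, mem_S m hP φ hφ u⟩ := by
    rw [← psi_apply (hP := hP) (hφ := hφ) u, hu]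
    rw [inv_mul_eq_one] at h2
    exact h2.symm
  rw [m.π_eq_iff] at h3
  obtain ⟨s, hs, e⟩ := h3
  obtain ⟨c, hc⟩ := (Geo.mem_scalars_iff s).1 hs
  refine ⟨u, c, ?_⟩
  have e2 : (t : Matrix ι ι F) = (φ u : Matrix ι ι F) * (s : Matrix ι ι F) := congrArg Units.val e
  rw [e2, hc, Matrix.mul_smul, mul_one]

end cent

end Cfsg.Agent.H833.TenFive
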