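import Cfsg.Agent.H833.TenFive.Four
import Cfsg.Agent.H833.TenFive.Psi

/-!
# `PSL(5, F)` in `PSL(10, F)` (helper833, task 6155)

`l5_own` : no extremely primitive group of this type.
-/

set_option autoImplicit false
set_option linter.unusedSectionVars false

namespace Cfsg.Agent.H833.TenFive

open Matrix CoxeterSystem Cfsg.Agent.ChevalleyStructure.CoxeterGeom Cfsg.Agent.Tits.Roots
  Cfsg.Agent.Nodes.Reps Cfsg.Agent.Nodes.BNOf Cfsg.Agent.Nodes.StabComb Cfsg.Agent.Nodes.Bruhat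
  Cfsg.Agent.Nodes.OppDec Cfsg.Agent.Nodes.LeviDec Cfsg.Agent.Nodes.RGDLib
  Cfsg.Agent.Nodes.RootsA Cfsg.Agent.Nodes.RGDTypeA
open Cfsg.Agent.LieRecognition.BNCox (cA cA_apply)
open Cfsg.Agent.TitsThree.KSideA (tv tv_of_ne tv_add tv_zero tv_neg tv_comm tv_commute)
open Cfsg.Agent.H419.EP Cfsg.Agent.H887.DS
open Cfsg.Agent.H911 (lin lin_apply)
open Cfsg Cfsg.Geo

universe u

variable {F : Type u} [Field F] [Finite F] {ι : Type} [Fintype ι] [DecidableEq ι]

/-- the standard RGD of `SL(5, F)` has abelian simple root groups -/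
theorem X_ab (i : Fin 4) : ∀ a ∈ X F (sr i), ∀ b ∈ X F (sr i), a * b = b * a := by
  rw [X_sr]
  rintro _ ⟨s, rfl⟩ _ ⟨t, rfl⟩
  rw [← tv_add, ← tv_add, add_comm s t]

/-- the stabiliser of `e₀` -/
theorem UU_ee {u : SpecialLinearGroup (Fin 5) F} (hu : u ∈ UU F) : u.1 *ᵥ (ee 0 : Fin 5 → F) = ee 0 := by
  let K : Subgroup (SpecialLinearGroup (Fin 5) F) :=
    { carrier := {g | g.1 *ᵥ (ee 0 : Fin 5 → F) = ee 0}
      one_mem' := one_mulVec _
      mul_mem' := by
        intro a b (ha : a.1 *ᵥ (ee 0 : Fin 5 → F) = ee 0) (hb : b.1 *ᵥ (ee 0 : Fin 5 → F) = ee 0)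
        show (a.1 * b.1) *ᵥ (ee 0 : Fin 5 → F) = ee 0
        rw [← mulVec_mulVec, hb, ha]
      inv_mem' := by
        intro a (ha : a.1 *ᵥ (ee 0 : Fin 5 → F) = ee 0)
        show (a⁻¹).1 *ᵥ (ee 0 : Fin 5 → F) = ee 0
        conv_lhs => rw [← ha]
        rw [mulVec_mulVec]
        have h3 : (a⁻¹).1 * a.1 = 1 := congrArg Subtype.val (inv_mul_cancel a)
        rw [h3, one_mulVec] }
  have h1 : UU F ≤ K := by
    refine UU_le fun a b hab s => ?_
    show (tv a b s).1 *ᵥ (ee 0 : Fin 5 → F) = ee 0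
    refine Wedge.tv_ee hab.ne s ?_
    rintro rfl
    exact absurd hab (Fin.not_lt_zero a)
  exact h1 hu

/-- **`PSL(5, F)` in `PSL(10, F)`** -/
theorem l5_own {Q : Type*} [Group Q] {A : Subgroup Q} {Γ : Subgroup (MulAut Q)} (h : H284.EPT A Γ)
    (m : Model Q (Geo.specialLinear ι F)) {P : Subgroup (GL ι F)} (hP : Geo.IsResidualCore (m.hat A) P)
    (Φ : (P ⧸ (Geo.scalars ι F).subgroupOf P) ≃* ProjectiveSpecialLinearGroup (Fin 5) F)
    (hn : Fintype.card ι = 10) : False := by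
  classical
  have hQ : Finite Q := Finite.of_surjective _ m.surj
  obtain ⟨p, hFp⟩ := CharP.exists F
  have hp : Fact p.Prime := ⟨(CharP.char_is_prime_or_zero F p).resolve_right (CharP.char_ne_zero_of_finite F p)⟩
  obtain ⟨φ, hφ, hsc, v, ψ, hψ⟩ := coef5 p (H915.LD.core_of_residual hP) Φ hn
  obtain ⟨M⟩ := exists_wedge (φ := φ) (v := v) (ψ := ψ) (by
    intro S hS
    exact fRep_irr hφ hP.absIrred S fun g w hw => hS g w hw) hψ
  have hW : Finite (cA 4).Group := finite_W (cA 4).toCoxeterSystem (isCartan 4)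
  have R := Nodes.RGDTypeA.rgd (cA 4).toCoxeterSystem (isCartan 4) (F := F) (p := p)
  have hG1 := Nodes.RGDTypeA.G1_eq_top (F := F) (cA 4).toCoxeterSystem (isCartan 4)
  have hφH : φ.range ≤ m.hat A := by rw [hφ]; exact hP.le
  have hDD : DD M (m.hat A) = ⊥ := M.DD_eq_bot p hφH fun t ht htU =>
    cent_U m hP φ hφ hsc R hG1 X_ab ht htU
  have hDD' : ∀ (f : Module.Dual F (ι → F)) (hf : f M.v₀ = 0), tg M.v₀ f hf ∈ m.hat A → f = 0 := by
    intro f hf ht
    have h1 : tg M.v₀ f hf ∈ DD M (m.hat A) := ⟨ht, f, hf, rfl⟩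
    rw [hDD, Subgroup.mem_bot] at h1
    ext w
    have h2 := congrArg (fun g : GL ι F => (g : Matrix ι ι F) *ᵥ (Pi.single w 1 : ι → F)) h1
    simp only [tg_val, tm_mulVec, Units.val_one, one_mulVec] at h2
    have h3 : f (Pi.single w 1) • M.v₀ = 0 := add_eq_left.1 h2
    exact (smul_eq_zero.1 h3).resolve_right M.v₀_ne
  -- the point
  set t : GL ι F := tg M.v₀ M.f₀ M.f₀_v₀ with ht
  have htS : t ∈ Geo.specialLinear ι F := tg_mem _ _ _
  set x : Q := m.π ⟨t, htS⟩ with hx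
  have hxA : x ∉ A := by
    intro h1
    exact M.f₀_ne (hDD' _ M.f₀_v₀ ((m.mem_hat_iff ⟨t, htS⟩).2 h1))
  -- the socle
  set N := (psi m hP φ hφ).range with hN
  have hs : H839.EP.Soc A N := psi_soc m hP φ hφ
  have hNs : IsSimpleGroup N := psi_simple m hP φ hφ
  have hNΓ := hs.inv h hNs
  have R' := psi_rgd m hP φ hφ hsc R
  have hX := psi_G1 m hP φ hφ (cs := (cA 4).toCoxeterSystem) (hC := isCartan 4) hG1
  have hc := psi_nonab m hP φ hφ
  have hcA : ∀ i j : Fin 4, cA 4 i j ≤ 3 := by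
    intro i j
    rw [cA_apply]
    show (if (i : ℕ) = j then 1 else if (i : ℕ) + 1 = j ∨ (j : ℕ) + 1 = i then 3 else 2) ≤ 3
    split_ifs <;> norm_num
  have hBT : KFacts.RgdCharP.BT (cA 4).toCoxeterSystem (isCartan 4) p ((T (Fin (4 + 1)) F).map (psi m hP φ hφ).rangeRestrict)
      (fun x => (X F x).map (psi m hP φ hφ).rangeRestrict) := fun K hK h1 =>
    KFacts.RgdFilt.borel_tits_of_filt (R := R')
      (KFacts.RgdFilt.intComm_of_sl R' (KFacts.RgdFiltWitt.sl_of_ne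
        (fun i j h => by have := hcA i j; omega) (fun i j h => by have := hcA i j; omega))).filt hX hK h1
  have hGG := KFacts.RgdFilt.GG_eq_top (T := (T (Fin (4 + 1)) F).map (psi m hP φ hφ).rangeRestrict) hX
  have hconn : KFacts.RgdCharP.Conn (cA 4) :=
    KFacts.RgdLieCharP.conn_of_simple R' hX (KFacts.RgdLieCharP.center_eq_bot hc)
  set J : Set (Fin 4) := {i | i ≠ 0} with hJ
  have hJ1 : J ≠ Set.univ := by
    intro e
    have : (0 : Fin 4) ∈ J := by rw [e]; trivial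
    exact this rfl
  -- conjugation by `x`
  have hcj : ∀ g : SpecialLinearGroup (Fin 5) F, psi m hP φ hφ g ∈ H284.cj x A ↔ t⁻¹ * φ g * t ∈ m.hat A := by
    intro g
    rw [H284.mem_cj]
    have e : x⁻¹ * psi m hP φ hφ g * x = m.π (⟨t, htS⟩⁻¹ * ⟨φ g, mem_S m hP φ hφ g⟩ * ⟨t, htS⟩) := by
      rw [map_mul, map_mul, map_inv]
      rfl
    rw [e, ← m.mem_hat_iff]
    rfl
  have hV : Nodes.Reps.cj (1 : N) (VJ (cA 4).toCoxeterSystem (isCartan 4)
      (fun x => (X F x).map (psi m hP φ hφ).rangeRestrict) J) ≤ (H284.cj x A).subgroupOf N := by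
    rw [cj_one]
    unfold VJ
    rw [Sup_map, Subgroup.map_le_iff_le_comap]
    refine RGD.Sup_le ?_
    rintro y ⟨hy, hy0, k, hk, hk0⟩
    obtain ⟨a, b, hab, rfl⟩ := (isRoot_iff _ _).1 hy
    rw [X_rtA hab]
    rintro _ ⟨s, rfl⟩
    have hk' : k = 0 := by
      by_contra hne
      exact hk hne
    subst hk'
    have ha : a = 0 := by
      rw [rtA_apply] at hk0
      by_contra hne
      have h1 : ¬ a.val ≤ (0 : Fin 4).val := by
        intro h2
        exact hne (Fin.ext (by simpa using h2))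
      rw [if_neg h1] at hk0
      split_ifs at hk0 <;> omega
    subst ha
    show psi m hP φ hφ (tv 0 b s) ∈ H284.cj x A
    rw [hcj]
    have h0b : (0 : Fin 5) < b := Fin.pos_of_ne_zero hab.symm
    obtain ⟨h2, e⟩ := tg_conj M.f₀_v₀ (s := φ (tv 0 b s)) (M.UU_le_St (tv_mem_UU h0b s)) (f' := M.f₀)
      (M.f₀_tv hab s)
    have e2 : t⁻¹ * φ (tv 0 b s) * t = φ (tv 0 b s) := by
      have e3 : φ (tv 0 b s) * t * (φ (tv 0 b s))⁻¹ = t := e
      rw [mul_inv_eq_iff_eq_mul] at e3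
      rw [mul_assoc, e3, inv_mul_cancel_left]
    rw [e2]
    exact hφH ⟨_, rfl⟩
  obtain ⟨g', h1, h2⟩ := exists_sylow_cj h hNs hs.le hNΓ hc R' hBT hGG hX hconn hJ1 hxA hV
  obtain ⟨g, hg⟩ := MonoidHom.rangeRestrict_surjective (psi m hP φ hφ) g'
  refine M.contra (g := g) ?_ ?_
  · intro j hj
    have h3 : (psi m hP φ hφ).rangeRestrict (tv 0 j 1) ∈ Nodes.Reps.cj g' (RGD.Sup
        (fun x => (X F x).map (psi m hP φ hφ).rangeRestrict) (RGD.Pos (cA 4).toCoxeterSystem (isCartan 4))) := by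
      apply h1
      rw [cj_one]
      unfold VJ
      refine RGD.le_Sup (z := rtA 0 j) ?_ ?_
      · refine ⟨isRoot_rtA (cA 4).toCoxeterSystem (isCartan 4) hj.symm, rtA_nonneg_iff.2 (Fin.zero_le _), 0,
          fun h4 => h4 rfl, ?_⟩
        have h5 : ¬ j.val ≤ (0 : Fin 4).val := by
          intro h2
          exact hj (Fin.ext (by simpa using h2))
        rw [rtA_apply, if_pos (by simp), if_neg h5]
        norm_num
      · refine ⟨tv 0 j 1, ?_, rfl⟩
        rw [SetLike.mem_coe, X_rtA hj.symm]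
        exact ⟨1, rfl⟩
    rw [Sup_map] at h3
    obtain ⟨_, ⟨u, hu, rfl⟩, e⟩ := h3
    have e2 : (psi m hP φ hφ).rangeRestrict (g * u * g⁻¹ * (tv 0 j 1)⁻¹) = 1 := by
      rw [map_mul, map_mul, map_mul, map_inv, map_inv, hg]
      have e3 : g' * (psi m hP φ hφ).rangeRestrict u * g'⁻¹ = (psi m hP φ hφ).rangeRestrict (tv 0 j 1) := e
      rw [e3, mul_inv_cancel]
    have h4 := hsc _ (psi_eq_one (congrArg Subtype.val e2))
    obtain ⟨r, -, hr⟩ := Matrix.SpecialLinearGroup.mem_center_iff.1 h4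
    have e3 : (g * u * g⁻¹).1 = Matrix.scalar (Fin 5) r * (tv 0 j 1).1 := by
      rw [hr]
      show _ = ((g * u * g⁻¹ * (tv 0 j 1)⁻¹) * tv 0 j 1 : SpecialLinearGroup (Fin 5) F).1
      rw [inv_mul_cancel_right]
    have hz : (g * u * g⁻¹).1 *ᵥ (g.1 *ᵥ ee 0) = g.1 *ᵥ ee 0 := by
      have e4 : (g * u * g⁻¹).1 * g.1 = g.1 * u.1 := by
        show ((g * u * g⁻¹) * g : SpecialLinearGroup (Fin 5) F).1 = (g * u : SpecialLinearGroup (Fin 5) F).1
        rw [inv_mul_cancel_right]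
      rw [mulVec_mulVec, e4, ← mulVec_mulVec, UU_ee hu]
    rw [e3, ← mulVec_mulVec, tv_mulVec hj.symm] at hz
    by_contra hne
    have k1 := congrFun hz j
    have k0 := congrFun hz 0
    simp [ee, hj, mulVec_diagonal] at k1 k0
    simp [ee] at hne
    have hr1 : r = 1 := mul_right_cancel₀ hne (by rw [k1, one_mul])
    rw [hr1, one_mul] at k0
    exact hne (add_eq_left.1 k0)
  · intro y hy hv w
    have h3 : psi m hP φ hφ (g * y * g⁻¹) ∈ H284.cj x A := by
      have h4 : g' * (psi m hP φ hφ).rangeRestrict y * g'⁻¹ ∈ (H284.cj x A).subgroupOf N := by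
        apply h2
        refine ⟨(psi m hP φ hφ).rangeRestrict y, ?_, rfl⟩
        rw [SetLike.mem_coe, Sup_map]
        exact ⟨y, hy, rfl⟩
      rw [← hg, ← map_inv, ← map_mul, ← map_mul] at h4
      exact h4
    rw [hcj] at h3
    set s := φ (g * y * g⁻¹) with hsd
    have hsH : s ∈ m.hat A := hφH ⟨_, rfl⟩
    obtain ⟨h4, e⟩ := tg_conj M.f₀_v₀ (s := s) hv (f' := da s M.f₀) (da_apply _ _)
    have h5 := (m.hat A).mul_mem h3 ((m.hat A).inv_mem hsH)
    have e2 : t⁻¹ * s * t * s⁻¹ = tg M.v₀ (-M.f₀ + da s M.f₀) (by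
        rw [LinearMap.add_apply, LinearMap.neg_apply, M.f₀_v₀, h4, neg_zero, add_zero]) := by
      have e3 : t⁻¹ * s * t * s⁻¹ = t⁻¹ * (s * t * s⁻¹) := by group
      rw [e3, e, ht, tg_inv, tg_mul]
    rw [e2] at h5
    have h6 := hDD' _ _ h5
    rw [neg_add_eq_zero] at h6
    conv_lhs => rw [h6]
    exact da_apply _ _ _

end Cfsg.Agent.H833.TenFive
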