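import Cfsg.Agent.H833.TenFive.Coef

/-!
# The exterior square model (helper833, task 6155)

`φ : SL(5, F) → GL(ι, F)` irreducible with `ψ (φ g v) = g₀₀ g₁₁ - g₀₁ g₁₀`. Then there is an injective linear map `L`
from `F^ι` to the `5 × 5` matrices with `L (φ g w) = g L(w) gᵀ`, image the alternating matrices, `L v = e₀ ∧ e₁`.
-/

set_option autoImplicit false
set_option linter.unusedSectionVars false

namespace Cfsg.Agent.H833.TenFive

open Matrix
open Cfsg.Agent.TitsThree.KSideA (tv tv_of_ne tv_add tv_zero tv_neg tv_comm tv_commute)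
open Cfsg Cfsg.Geo

universe u

section wedge

variable {F : Type u} [Field F] {n : ℕ}

/-- `a ∧ b` -/
def wd (a b : Fin n → F) : Matrix (Fin n) (Fin n) F := vecMulVec a b - vecMulVec b a

theorem wd_apply (a b : Fin n → F) (i j : Fin n) : wd a b i j = a i * b j - b i * a j := rfl

theorem wd_conj (g : Matrix (Fin n) (Fin n) F) (a b : Fin n → F) : g * wd a b * gᵀ = wd (g *ᵥ a) (g *ᵥ b) := by
  unfold wd
  rw [mul_sub, sub_mul, mul_vecMulVec, mul_vecMulVec, vecMulVec_mul, vecMulVec_mul, vecMul_transpose,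
    vecMul_transpose]

theorem wd_self (a : Fin n → F) : wd a a = 0 := by
  ext i j
  rw [wd_apply, Matrix.zero_apply, sub_self]

theorem wd_swap (a b : Fin n → F) : wd b a = -wd a b := by
  ext i j
  rw [Matrix.neg_apply, wd_apply, wd_apply]
  ring

theorem wd_add (a a' b : Fin n → F) : wd (a + a') b = wd a b + wd a' b := by
  ext i j
  simp only [wd_apply, Matrix.add_apply, Pi.add_apply]
  ring

theorem wd_add' (a b b' : Fin n → F) : wd a (b + b') = wd a b + wd a b' := by
  ext i j
  simp only [wd_apply, Matrix.add_apply, Pi.add_apply]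
  ring

theorem wd_smul (c : F) (a b : Fin n → F) : wd (c • a) b = c • wd a b := by
  ext i j
  simp only [wd_apply, Matrix.smul_apply, Pi.smul_apply, smul_eq_mul]
  ring

theorem wd_smul' (c : F) (a b : Fin n → F) : wd a (c • b) = c • wd a b := by
  ext i j
  simp only [wd_apply, Matrix.smul_apply, Pi.smul_apply, smul_eq_mul]
  ring

/-- the standard basis vector -/
abbrev ee (i : Fin n) : Fin n → F := Pi.single i 1

theorem tv_mulVec {a b : Fin n} (hab : a ≠ b) (t : F) (w : Fin n → F) :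
    (tv a b t).1 *ᵥ w = w + (t * w b) • ee a := by
  rw [tv_of_ne hab]
  show (transvection a b t) *ᵥ w = _
  unfold transvection
  rw [add_mulVec, one_mulVec, single_mulVec]
  congr 1
  funext i
  by_cases hi : i = a
  · subst hi
    simp
  · simp [hi]

/-- bilinearity -/
theorem wd_mem' {S : Submodule F (Matrix (Fin 5) (Fin 5) F)} (hlk : ∀ l k : Fin 5, wd (ee l) (ee k) ∈ S)
    (a b : Fin 5 → F) : wd a b ∈ S := by
  have hak : ∀ k : Fin 5, wd a (ee k) ∈ S := by
    intro k
    have e : a = ∑ i, a i • (ee i : Fin 5 → F) := by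
      conv_lhs => rw [← Finset.univ_sum_single a]
      refine Finset.sum_congr rfl fun i _ => ?_
      rw [← Pi.single_smul, smul_eq_mul, mul_one]
    have e2 : wd a (ee k) = ∑ i, a i • wd (ee i) (ee k) := by
      conv_lhs => rw [e]
      simp only [Fin.sum_univ_five, wd_add, wd_smul]
    rw [e2]
    exact S.sum_mem fun i _ => S.smul_mem _ (hlk i k)
  have e : b = ∑ i, b i • (ee i : Fin 5 → F) := by
    conv_lhs => rw [← Finset.univ_sum_single b]
    refine Finset.sum_congr rfl fun i _ => ?_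
    rw [← Pi.single_smul, smul_eq_mul, mul_one]
  have e2 : wd a b = ∑ i, b i • wd a (ee i) := by
    conv_lhs => rw [e]
    simp only [Fin.sum_univ_five, wd_add', wd_smul']
  rw [e2]
  exact S.sum_mem fun i _ => S.smul_mem _ (hak i)

/-- a submodule of matrices closed under `X ↦ g X gᵀ` containing `e₀ ∧ e₁` contains all `a ∧ b` -/
theorem wd_mem {S : Submodule F (Matrix (Fin 5) (Fin 5) F)} (hS : ∀ g : SpecialLinearGroup (Fin 5) F, ∀ X ∈ S,
    g.1 * X * g.1ᵀ ∈ S) (h01 : wd (ee 0) (ee 1) ∈ S) (a b : Fin 5 → F) : wd a b ∈ S := by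
  have h0k : ∀ k : Fin 5, wd (ee 0) (ee k) ∈ S := by
    intro k
    rcases eq_or_ne k 0 with rfl | hk0
    · rw [wd_self]; exact S.zero_mem
    rcases eq_or_ne k 1 with rfl | hk1
    · exact h01
    have h1 := hS (tv k 1 1) _ h01
    rw [wd_conj, tv_mulVec hk1, tv_mulVec hk1] at h1
    have e1 : (ee 0 : Fin 5 → F) + (1 * (ee 0 : Fin 5 → F) 1) • ee k = ee 0 := by
      simp [ee]
    have e2 : (ee 1 : Fin 5 → F) + (1 * (ee 1 : Fin 5 → F) 1) • ee k = ee 1 + ee k := by
      simp [ee]
    rw [e1, e2, wd_add'] at h1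
    have h2 := S.sub_mem h1 h01
    rwa [add_sub_cancel_left] at h2
  have hlk : ∀ l k : Fin 5, wd (ee l) (ee k) ∈ S := by
    intro l k
    rcases eq_or_ne l k with rfl | hlk
    · rw [wd_self]; exact S.zero_mem
    rcases eq_or_ne l 0 with rfl | hl0
    · exact h0k k
    rcases eq_or_ne k 0 with rfl | hk0
    · rw [wd_swap]; exact S.neg_mem (h0k l)
    have h1 := hS (tv l 0 1) _ (h0k k)
    rw [wd_conj, tv_mulVec hl0, tv_mulVec hl0] at h1
    have e1 : (ee 0 : Fin 5 → F) + (1 * (ee 0 : Fin 5 → F) 0) • ee l = ee 0 + ee l := by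
      simp [ee]
    have e2 : (ee k : Fin 5 → F) + (1 * (ee k : Fin 5 → F) 0) • ee l = ee k := by
      simp [ee, hk0.symm]
    rw [e1, e2, wd_add] at h1
    have h2 := S.sub_mem h1 (h0k k)
    rwa [add_sub_cancel_left] at h2
  exact wd_mem' hlk a b

/-- prescribed first two rows -/
theorem exists_rows {i j : Fin 5} (hij : i ≠ j) : ∃ h : SpecialLinearGroup (Fin 5) F, h.1 0 = ee i ∧ h.1 1 = ee j := by
  obtain ⟨σ, h0, h1⟩ : ∃ σ : Equiv.Perm (Fin 5), σ 0 = i ∧ σ 1 = j := by
    refine ⟨Equiv.swap (Equiv.swap 0 i 1) j * Equiv.swap 0 i, ?_, ?_⟩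
    · rw [Equiv.Perm.mul_apply, Equiv.swap_apply_left, Equiv.swap_apply_of_ne_of_ne ?_ hij]
      intro h
      have h1 : Equiv.swap 0 i 0 = Equiv.swap 0 i 1 := by rw [Equiv.swap_apply_left]; exact h
      exact absurd ((Equiv.swap 0 i).injective h1) (by decide)
    · rw [Equiv.Perm.mul_apply, Equiv.swap_apply_left]
  have hd : (σ.permMatrix F).det = (Equiv.Perm.sign σ : F) := det_permutation σ
  have hs : ((Equiv.Perm.sign σ : ℤ) : F) * ((Equiv.Perm.sign σ : ℤ) : F) = 1 := by
    rcases Int.units_eq_one_or (Equiv.Perm.sign σ) with h | h <;> simp [h]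
  have hrow : ∀ k : Fin 5, (σ.permMatrix F) k = ee (σ k) := by
    intro k
    funext l
    rw [Equiv.Perm.permMatrix, PEquiv.toMatrix_apply]
    by_cases h : σ k = l
    · subst h; simp
    · simp [h, Ne.symm h]
  refine ⟨⟨diagonal ![1, 1, ((Equiv.Perm.sign σ : ℤ) : F), 1, 1] * σ.permMatrix F, ?_⟩, ?_, ?_⟩
  · rw [det_mul, det_diagonal, hd, Fin.prod_univ_five]
    simpa using hs
  · funext l
    show (diagonal ![1, 1, ((Equiv.Perm.sign σ : ℤ) : F), 1, 1] * σ.permMatrix F) 0 l = _
    rw [diagonal_mul, hrow, h0]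
    simp
  · funext l
    show (diagonal ![1, 1, ((Equiv.Perm.sign σ : ℤ) : F), 1, 1] * σ.permMatrix F) 1 l = _
    rw [diagonal_mul, hrow, h1]
    simp

end wedge

section model

variable {F : Type u} [Field F] {ι : Type} [Fintype ι] [DecidableEq ι]

/-- the exterior square model -/
structure Wedge (φ : SpecialLinearGroup (Fin 5) F →* GL ι F) where
  L : (ι → F) →ₗ[F] Matrix (Fin 5) (Fin 5) F
  inj : Function.Injective L
  eqv : ∀ g w, L ((φ g : Matrix ι ι F) *ᵥ w) = g.1 * L w * g.1ᵀ
  alt : ∀ w i j, L w i j = -L w j i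
  dia : ∀ w i, L w i i = 0
  ω : (Fin 5 → F) → (Fin 5 → F) → (ι → F)
  Lω : ∀ a b, L (ω a b) = wd a b
  spn : ∀ S : Submodule F (ι → F), (∀ a b, ω a b ∈ S) → ∀ w, w ∈ S

theorem exists_wedge {φ : SpecialLinearGroup (Fin 5) F →* GL ι F}
    (hirr : ∀ S : Submodule F (ι → F), (∀ g, ∀ w ∈ S, (φ g : Matrix ι ι F) *ᵥ w ∈ S) → S = ⊥ ∨ S = ⊤)
    {v : ι → F} {ψ : Module.Dual F (ι → F)}
    (h : ∀ g, ψ ((φ g : Matrix ι ι F) *ᵥ v) = g.1 0 0 * g.1 1 1 - g.1 0 1 * g.1 1 0) :
    Nonempty (Wedge φ) := by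
  classical
  have hH : ∀ i j : Fin 5, ∃ H : SpecialLinearGroup (Fin 5) F, i ≠ j → H.1 0 = ee i ∧ H.1 1 = ee j := by
    intro i j
    by_cases hij : i = j
    · exact ⟨1, fun h => absurd hij h⟩
    · obtain ⟨H, hH⟩ := exists_rows (F := F) hij
      exact ⟨H, fun _ => hH⟩
  choose H hH using hH
  have hv0 : v ≠ 0 := by
    rintro rfl
    have h1 := h 1
    rw [mulVec_zero, map_zero] at h1
    simp at h1
  have hspan : Submodule.span F (Set.range fun g : SpecialLinearGroup (Fin 5) F => (φ g : Matrix ι ι F) *ᵥ v) = ⊤ := by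
    refine (hirr _ ?_).resolve_left ?_
    · intro g w hw
      induction hw using Submodule.span_induction with
      | mem x hx =>
        obtain ⟨y, rfl⟩ := hx
        refine Submodule.subset_span ⟨g * y, ?_⟩
        show (φ (g * y) : Matrix ι ι F) *ᵥ v = (φ g : Matrix ι ι F) *ᵥ ((φ y : Matrix ι ι F) *ᵥ v)
        rw [map_mul, Units.val_mul, mulVec_mulVec]
      | zero => rw [mulVec_zero]; exact Submodule.zero_mem _
      | add x y _ _ hx hy => rw [mulVec_add]; exact Submodule.add_mem _ hx hy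
      | smul a x _ hx => rw [mulVec_smul]; exact Submodule.smul_mem _ _ hx
    · intro h0
      have h1 : v ∈ Submodule.span F (Set.range fun g : SpecialLinearGroup (Fin 5) F => (φ g : Matrix ι ι F) *ᵥ v) := by
        refine Submodule.subset_span ⟨1, ?_⟩
        show (φ 1 : Matrix ι ι F) *ᵥ v = v
        rw [map_one, Units.val_one, one_mulVec]
      rw [h0] at h1
      exact hv0 ((Submodule.mem_bot F).1 h1)
  let L : (ι → F) →ₗ[F] Matrix (Fin 5) (Fin 5) F :=
    { toFun := fun w => Matrix.of fun i j => if i = j then 0 else ψ ((φ (H i j) : Matrix ι ι F) *ᵥ w)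
      map_add' := by
        intro x y
        ext i j
        simp only [Matrix.of_apply, Matrix.add_apply, mulVec_add, map_add]
        split_ifs
        · rw [add_zero]
        · rfl
      map_smul' := by
        intro c x
        ext i j
        simp only [Matrix.of_apply, Matrix.smul_apply, mulVec_smul, map_smul, RingHom.id_apply]
        split_ifs
        · rw [smul_zero]
        · rfl }
  have hL : ∀ w i j, L w i j = if i = j then 0 else ψ ((φ (H i j) : Matrix ι ι F) *ᵥ w) := fun w i j => rfl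
  have hLg : ∀ g : SpecialLinearGroup (Fin 5) F, L ((φ g : Matrix ι ι F) *ᵥ v) = g.1 * wd (ee 0) (ee 1) * g.1ᵀ := by
    intro g
    rw [wd_conj]
    ext i j
    rw [hL, wd_apply]
    have hg : ∀ k l : Fin 5, (g.1 *ᵥ ee l) k = g.1 k l := by
      intro k l
      simp [ee]
    rw [hg, hg, hg, hg]
    split_ifs with hij
    · subst hij
      ring
    · obtain ⟨h1, h2⟩ := hH i j hij
      rw [mulVec_mulVec, ← Units.val_mul, ← map_mul, h]
      have e0 : ∀ l, (H i j * g).1 0 l = g.1 i l := by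
        intro l
        show ((H i j).1 * g.1) 0 l = _
        rw [mul_apply_eq_vecMul, h1]
        simp [ee]
      have e1 : ∀ l, (H i j * g).1 1 l = g.1 j l := by
        intro l
        show ((H i j).1 * g.1) 1 l = _
        rw [mul_apply_eq_vecMul, h2]
        simp [ee]
      rw [e0, e0, e1, e1]
  have hLv : L v = wd (ee 0) (ee 1) := by
    have h1 := hLg 1
    rw [map_one, Units.val_one, one_mulVec] at h1
    rw [h1]
    show (1 : Matrix (Fin 5) (Fin 5) F) * _ * (1 : Matrix (Fin 5) (Fin 5) F)ᵀ = _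
    rw [one_mul, transpose_one, mul_one]
  have heq : ∀ g w, L ((φ g : Matrix ι ι F) *ᵥ w) = g.1 * L w * g.1ᵀ := by
    intro g w
    have hw : w ∈ Submodule.span F (Set.range fun g : SpecialLinearGroup (Fin 5) F => (φ g : Matrix ι ι F) *ᵥ v) := by
      rw [hspan]; trivial
    induction hw using Submodule.span_induction with
    | mem x hx =>
      obtain ⟨y, rfl⟩ := hx
      show L ((φ g : Matrix ι ι F) *ᵥ ((φ y : Matrix ι ι F) *ᵥ v)) = g.1 * L ((φ y : Matrix ι ι F) *ᵥ v) * g.1ᵀ
      rw [mulVec_mulVec, ← Units.val_mul, ← map_mul, hLg, hLg]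
      show g.1 * y.1 * _ * (g.1 * y.1)ᵀ = _
      rw [transpose_mul]
      simp only [mul_assoc]
    | zero => rw [mulVec_zero, map_zero, mul_zero, zero_mul]
    | add x y _ _ hx hy => rw [mulVec_add, map_add, map_add, hx, hy, mul_add, add_mul]
    | smul a x _ hx => rw [mulVec_smul, map_smul, map_smul, hx, Matrix.mul_smul, Matrix.smul_mul]
  have halt : ∀ w i j, L w i j = -L w j i := by
    intro w
    have hw : w ∈ Submodule.span F (Set.range fun g : SpecialLinearGroup (Fin 5) F => (φ g : Matrix ι ι F) *ᵥ v) := by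
      rw [hspan]; trivial
    induction hw using Submodule.span_induction with
    | mem x hx =>
      obtain ⟨y, rfl⟩ := hx
      intro i j
      show L ((φ y : Matrix ι ι F) *ᵥ v) i j = -L ((φ y : Matrix ι ι F) *ᵥ v) j i
      rw [hLg, wd_conj, wd_apply, wd_apply]
      ring
    | zero => intro i j; rw [map_zero]; simp
    | add x y _ _ hx hy => intro i j; rw [map_add, Matrix.add_apply, Matrix.add_apply, hx, hy]; ring
    | smul a x _ hx => intro i j; rw [map_smul, Matrix.smul_apply, Matrix.smul_apply, hx, smul_neg]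
  have hinj : Function.Injective L := by
    rw [injective_iff_map_eq_zero]
    intro w hw
    have h1 := hirr (LinearMap.ker L) (by
      intro g w hw
      rw [LinearMap.mem_ker] at hw ⊢
      rw [heq, hw, mul_zero, zero_mul])
    rcases h1 with h1 | h1
    · have h2 : w ∈ LinearMap.ker L := hw
      rw [h1] at h2
      exact (Submodule.mem_bot F).1 h2
    · exfalso
      have h2 : v ∈ LinearMap.ker L := by rw [h1]; trivial
      rw [LinearMap.mem_ker, hLv] at h2
      have h3 := congrArg (fun M : Matrix (Fin 5) (Fin 5) F => M 0 1) h2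
      simp [wd_apply, ee] at h3
  have hω : ∀ a b, ∃ w, L w = wd a b := by
    intro a b
    have h1 := wd_mem (S := LinearMap.range L) (by
      rintro g _ ⟨w, rfl⟩
      exact ⟨_, heq g w⟩) ⟨v, hLv⟩ a b
    exact h1
  choose ω hω using hω
  refine ⟨⟨L, hinj, heq, halt, fun w i => by rw [hL, if_pos rfl], ω, hω, ?_⟩⟩
  intro S hS w
  have h1 : Submodule.span F (Set.range fun g : SpecialLinearGroup (Fin 5) F => (φ g : Matrix ι ι F) *ᵥ v) ≤ S := by
    rw [Submodule.span_le]
    rintro _ ⟨g, rfl⟩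
    have h2 : (φ g : Matrix ι ι F) *ᵥ v = ω (g.1 *ᵥ ee 0) (g.1 *ᵥ ee 1) := by
      apply hinj
      rw [hLg, wd_conj, hω]
    show (φ g : Matrix ι ι F) *ᵥ v ∈ S
    rw [h2]
    exact hS _ _
  rw [hspan] at h1
  exact h1 trivial

end model

end Cfsg.Agent.H833.TenFive
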