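import Cfsg.Agent.H833.TenFive.LFive
import Cfsg.Agent.S0249

/-!
# The own characteristic case `PSL(5, F)` of the row `PSL(10, F)` (helper833, task 6155)

`own5_sl` : exactly the hypothesis `own5` of `H837.EP.L10Row.row`.
-/

set_option autoImplicit false

namespace Cfsg.Agent.H833.TenFive

open Cfsg Cfsg.Geo Cfsg.Agent.H284 Cfsg.Agent.H419.EP
open scoped MatrixGroups

/-- the socle is unique -/
theorem soc_iso {Q : Type*} [Group Q] {A : Subgroup Q} {L L' : Type*} [Group L] [Group L'] (hs : IsSimpleGroup L)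
    (hs' : IsSimpleGroup L') (h : HasSoc A L) (h' : HasSoc A L') : Nonempty (L ≃* L') := by
  obtain ⟨N, h1, h2, h3, ⟨e⟩⟩ := h
  obtain ⟨N', h1', h2', h3', ⟨e'⟩⟩ := h'
  have hN : IsSimpleGroup N := e.isSimpleGroup
  have hN' : IsSimpleGroup N' := e'.isSimpleGroup
  have hn : ((N' ⊓ N).subgroupOf N).Normal := ⟨by
    rintro ⟨n, hn'⟩ hn ⟨a, ha⟩
    exact ⟨h2' a (h1 ha) n hn.1, N.mul_mem (N.mul_mem ha hn') (N.inv_mem ha)⟩⟩
  have hnn : ((N' ⊓ N).subgroupOf N').Normal := ⟨by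
    rintro ⟨n, hn'⟩ hn ⟨a, ha⟩
    exact ⟨N'.mul_mem (N'.mul_mem ha hn') (N'.inv_mem ha), h2 a (h1' ha) n hn.2⟩⟩
  have hne : N' ⊓ N ≠ ⊥ := by
    intro hbot
    have hcomm : ∀ n ∈ N, ∀ n' ∈ N', n' * n = n * n' := by
      intro n hn n' hn'
      have h5 : n' * n * n'⁻¹ * n⁻¹ ∈ N' ⊓ N := by
        refine ⟨?_, ?_⟩
        · have : n' * n * n'⁻¹ * n⁻¹ = n' * (n * n'⁻¹ * n⁻¹) := by group
          rw [this]
          exact N'.mul_mem hn' (h2' n (h1 hn) _ (N'.inv_mem hn'))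
        · exact N.mul_mem (h2 n' (h1' hn') _ hn) (N.inv_mem hn)
      rw [hbot, Subgroup.mem_bot] at h5
      rw [mul_inv_eq_one, mul_inv_eq_iff_eq_mul] at h5
      exact h5
    have hbotN : ∀ n ∈ N, n = 1 := fun n hn => h3' n (h1 hn) fun n' hn' => (hcomm n hn n' hn').symm
    have := hN.toNontrivial
    obtain ⟨a, b, hab⟩ := exists_pair_ne N
    exact hab (Subtype.ext ((hbotN a a.2).trans (hbotN b b.2).symm))
  have hle : N ≤ N' := by
    rcases hn.eq_bot_or_eq_top with h4 | h4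
    · exfalso
      apply hne
      rw [Subgroup.eq_bot_iff_forall]
      intro x hx
      have h5 : (⟨x, hx.2⟩ : N) ∈ (N' ⊓ N).subgroupOf N := hx
      rw [h4, Subgroup.mem_bot] at h5
      exact congrArg Subtype.val h5
    · intro x hx
      have h5 : (⟨x, hx⟩ : N) ∈ (N' ⊓ N).subgroupOf N := by rw [h4]; trivial
      exact (Subgroup.mem_inf.1 h5).1
  have hle' : N' ≤ N := by
    rcases hnn.eq_bot_or_eq_top with h4 | h4
    · exfalso
      apply hne
      rw [Subgroup.eq_bot_iff_forall]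
      intro x hx
      have h5 : (⟨x, hx.1⟩ : N') ∈ (N' ⊓ N).subgroupOf N' := hx
      rw [h4, Subgroup.mem_bot] at h5
      exact congrArg Subtype.val h5
    · intro x hx
      have h5 : (⟨x, hx⟩ : N') ∈ (N' ⊓ N).subgroupOf N' := by rw [h4]; trivial
      exact (Subgroup.mem_inf.1 h5).2
  obtain rfl := le_antisymm hle hle'
  exact ⟨e.symm.trans e'⟩

/-- **`own5`** -/
theorem own5_sl {Q : Type*} [Group Q] {A : Subgroup Q} {Γ : Subgroup (MulAut Q)} (h : EPT A Γ) {F : Type} [Field F]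
    [Finite F] (m : Model Q (Cfsg.Geo.specialLinear (Fin 10) F)) (hres : Cfsg.Geo.InLinearResidualClass (m.hat A))
    (hs : HasSoc A (Matrix.ProjectiveSpecialLinearGroup (Fin 5) F)) : False := by
  obtain ⟨P, hP, -⟩ := hres
  have hL : IsSimpleGroup (Matrix.ProjectiveSpecialLinearGroup (Fin 5) F) := S0249.result 5 (by norm_num)
  obtain ⟨Φ⟩ := soc_iso hP.simple hL (hasSoc_of_core m hP) hs
  exact l5_own h m hP Φ rfl

end Cfsg.Agent.H833.TenFive
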