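import Cfsg.Agent.H833.TenFive.Lin

/-!
# Transvections with centre the highest weight vector (helper833, task 6155)

* `tm v f = 1 + v ⊗ f`, `tg` the same as an element of `SL`;
* `UU F` : the group `U` of `SL(5, F)`; `no_tg` : no `tg v₀ f` in `H` if the centraliser of `φ(U)` in `H` is `F* φ(SL)`.
-/

set_option autoImplicit false
set_option linter.unusedSectionVars false

namespace Cfsg.Agent.H833.TenFive

open Matrix CoxeterSystem Cfsg.Agent.ChevalleyStructure.CoxeterGeom Cfsg.Agent.Tits.Roots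
  Cfsg.Agent.Nodes.BNOf Cfsg.Agent.Nodes.RootsA Cfsg.Agent.Nodes.RGDTypeA
open Cfsg.Agent.LieRecognition.BNCox (cA cA_apply)
open Cfsg.Agent.TitsThree.KSideA (tv tv_of_ne tv_add tv_zero tv_neg tv_comm tv_commute)
open Cfsg Cfsg.Geo

universe u

section tm

variable {F : Type u} [Field F] {ι : Type} [Fintype ι] [DecidableEq ι]

theorem dual_dot (f : Module.Dual F (ι → F)) (w : ι → F) : (fun i => f (Pi.single i 1)) ⬝ᵥ w = f w := by
  conv_rhs => rw [← Finset.univ_sum_single w]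
  rw [map_sum]
  refine Finset.sum_congr rfl fun i _ => ?_
  have h1 : (Pi.single i (w i) : ι → F) = w i • Pi.single i 1 := by
    rw [← Pi.single_smul, smul_eq_mul, mul_one]
  rw [h1, map_smul, smul_eq_mul, mul_comm]

/-- `1 + v ⊗ f` -/
def tm (v : ι → F) (f : Module.Dual F (ι → F)) : Matrix ι ι F := 1 + vecMulVec v (fun i => f (Pi.single i 1))

theorem tm_mulVec (v : ι → F) (f : Module.Dual F (ι → F)) (w : ι → F) : tm v f *ᵥ w = w + f w • v := by
  unfold tm
  rw [add_mulVec, one_mulVec, vecMulVec_mulVec, dual_dot, op_smul_eq_smul]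

theorem mat_ext {A B : Matrix ι ι F} (h : ∀ w, A *ᵥ w = B *ᵥ w) : A = B := by
  apply Matrix.toLin'.injective
  ext1 w
  ext1
  simp only [LinearMap.comp_apply, toLin'_apply]
  exact h _

theorem tm_zero (v : ι → F) : tm v 0 = 1 := by
  apply mat_ext
  intro w
  rw [tm_mulVec, one_mulVec, LinearMap.zero_apply, zero_smul, add_zero]

theorem tm_mul {v : ι → F} {f g : Module.Dual F (ι → F)} (hf : f v = 0) : tm v f * tm v g = tm v (f + g) := by
  apply mat_ext
  intro w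
  rw [← mulVec_mulVec, tm_mulVec, tm_mulVec, tm_mulVec, map_add, map_smul, hf, smul_zero, add_zero,
    LinearMap.add_apply]
  module

theorem tm_det {v : ι → F} {f : Module.Dual F (ι → F)} (hf : f v = 0) : (tm v f).det = 1 := by
  unfold tm
  rw [vecMulVec_eq Unit, det_one_add_replicateCol_mul_replicateRow, dual_dot, hf, add_zero]

/-- `1 + v ⊗ f` in `GL` -/
def tg (v : ι → F) (f : Module.Dual F (ι → F)) (hf : f v = 0) : GL ι F :=
  ⟨tm v f, tm v (-f), by rw [tm_mul hf, add_neg_cancel, tm_zero],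
    by rw [tm_mul (by rw [LinearMap.neg_apply, hf, neg_zero]), neg_add_cancel, tm_zero]⟩

theorem tg_val (v : ι → F) (f : Module.Dual F (ι → F)) (hf : f v = 0) : (tg v f hf : Matrix ι ι F) = tm v f := rfl

theorem tg_mem (v : ι → F) (f : Module.Dual F (ι → F)) (hf : f v = 0) : tg v f hf ∈ Geo.specialLinear ι F := by
  unfold Geo.specialLinear
  rw [MonoidHom.mem_ker]
  apply Units.ext
  exact tm_det hf

theorem tg_inv {v : ι → F} {f : Module.Dual F (ι → F)} (hf : f v = 0) :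
    (tg v f hf)⁻¹ = tg v (-f) (by rw [LinearMap.neg_apply, hf, neg_zero]) := Units.ext rfl

theorem tg_mul {v : ι → F} {f g : Module.Dual F (ι → F)} (hf : f v = 0) (hg : g v = 0) :
    tg v f hf * tg v g hg = tg v (f + g) (by rw [LinearMap.add_apply, hf, hg, add_zero]) := by
  apply Units.ext
  exact tm_mul hf

/-- conjugation -/
theorem tg_conj {v : ι → F} {f : Module.Dual F (ι → F)} (hf : f v = 0) {s : GL ι F} (hs : (s : Matrix ι ι F) *ᵥ v = v)
    {f' : Module.Dual F (ι → F)} (hf' : ∀ w, f' ((s : Matrix ι ι F) *ᵥ w) = f w) :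
    ∃ h : f' v = 0, s * tg v f hf * s⁻¹ = tg v f' h := by
  refine ⟨by rw [← hs, hf', hf], ?_⟩
  rw [mul_inv_eq_iff_eq_mul]
  apply Units.ext
  apply mat_ext
  intro w
  rw [Units.val_mul, Units.val_mul, ← mulVec_mulVec, ← mulVec_mulVec, tg_val, tg_val, tm_mulVec, tm_mulVec, hf',
    mulVec_add, mulVec_smul, hs]

/-- the dual action -/
def da (s : GL ι F) (f : Module.Dual F (ι → F)) : Module.Dual F (ι → F) :=
  f.comp (Matrix.toLin' ((s⁻¹ : GL ι F) : Matrix ι ι F))

theorem da_apply (s : GL ι F) (f : Module.Dual F (ι → F)) (w : ι → F) : da s f ((s : Matrix ι ι F) *ᵥ w) = f w := by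
  show f (Matrix.toLin' _ _) = _
  rw [toLin'_apply, mulVec_mulVec, Units.inv_mul, one_mulVec]

end tm

/-! ### the unipotent group -/

section uu

variable (F : Type u) [Field F]

/-- the group `U` -/
abbrev UU : Subgroup (SpecialLinearGroup (Fin (4 + 1)) F) :=
  RGD.Sup (X F) (RGD.Pos (cA 4).toCoxeterSystem (isCartan 4))

variable {F}

theorem tv_mem_UU {a b : Fin 5} (hab : a < b) (s : F) : tv a b s ∈ UU F := by
  refine RGD.le_Sup (S := RGD.Pos (cA 4).toCoxeterSystem (isCartan 4))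
    ⟨isRoot_rtA (cA 4).toCoxeterSystem (isCartan 4) hab.ne, rtA_nonneg_iff.2 hab.le⟩ ?_
  rw [X_rtA hab.ne]
  exact ⟨s, rfl⟩

theorem UU_le {K : Subgroup (SpecialLinearGroup (Fin 5) F)} (h : ∀ a b : Fin 5, a < b → ∀ s : F, tv a b s ∈ K) :
    UU F ≤ K := by
  refine RGD.Sup_le ?_
  rintro x ⟨hx, hx0⟩
  obtain ⟨a, b, hab, rfl⟩ := (isRoot_iff _ _).1 hx
  rw [X_rtA hab]
  rintro _ ⟨s, rfl⟩
  exact h a b (lt_of_le_of_ne (rtA_nonneg_iff.1 hx0) hab) s

end uu

section wedge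

variable {F : Type u} [Field F] {ι : Type} [Fintype ι] [DecidableEq ι] {φ : SpecialLinearGroup (Fin 5) F →* GL ι F}
  (M : Wedge φ)

namespace Wedge

theorem φω (g : SpecialLinearGroup (Fin 5) F) (a b : Fin 5 → F) :
    (φ g : Matrix ι ι F) *ᵥ M.ω a b = M.ω (g.1 *ᵥ a) (g.1 *ᵥ b) := by
  apply M.inj
  rw [M.eqv, M.Lω, M.Lω, wd_conj]

theorem ω_add' (a b b' : Fin 5 → F) : M.ω a (b + b') = M.ω a b + M.ω a b' := by
  apply M.inj
  rw [map_add, M.Lω, M.Lω, M.Lω, wd_add']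

theorem ω_add (a a' b : Fin 5 → F) : M.ω (a + a') b = M.ω a b + M.ω a' b := by
  apply M.inj
  rw [map_add, M.Lω, M.Lω, M.Lω, wd_add]

theorem ω_smul' (c : F) (a b : Fin 5 → F) : M.ω a (c • b) = c • M.ω a b := by
  apply M.inj
  rw [map_smul, M.Lω, M.Lω, wd_smul']

theorem ω_smul (c : F) (a b : Fin 5 → F) : M.ω (c • a) b = c • M.ω a b := by
  apply M.inj
  rw [map_smul, M.Lω, M.Lω, wd_smul]

theorem ω_self (a : Fin 5 → F) : M.ω a a = 0 := by
  apply M.inj
  rw [map_zero, M.Lω, wd_self]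

theorem ω_swap (a b : Fin 5 → F) : M.ω b a = -M.ω a b := by
  apply M.inj
  rw [map_neg, M.Lω, M.Lω, wd_swap]

/-- the highest weight vector -/
def v₀ : ι → F := M.ω (ee 0) (ee 1)

theorem v₀_ne : M.v₀ ≠ 0 := by
  intro h
  have h1 := congrArg M.L h
  rw [v₀, M.Lω, map_zero] at h1
  have h3 := congrArg (fun M : Matrix (Fin 5) (Fin 5) F => M 0 1) h1
  simp [wd_apply, ee] at h3

theorem tv_ee {a b : Fin 5} (hab : a ≠ b) (s : F) {k : Fin 5} (hk : k ≠ b) :
    (tv a b s).1 *ᵥ (ee k : Fin 5 → F) = ee k := by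
  rw [tv_mulVec hab]
  simp [ee, hk.symm]

theorem tv_ee' {a b : Fin 5} (hab : a ≠ b) (s : F) :
    (tv a b s).1 *ᵥ (ee b : Fin 5 → F) = ee b + s • ee a := by
  rw [tv_mulVec hab]
  simp [ee]

/-- the stabiliser of `v₀` -/
def St : Subgroup (SpecialLinearGroup (Fin 5) F) where
  carrier := {g | (φ g : Matrix ι ι F) *ᵥ M.v₀ = M.v₀}
  one_mem' := by
    show (φ 1 : Matrix ι ι F) *ᵥ M.v₀ = M.v₀
    rw [map_one, Units.val_one, one_mulVec]
  mul_mem' := by
    intro a b (ha : (φ a : Matrix ι ι F) *ᵥ M.v₀ = M.v₀) (hb : (φ b : Matrix ι ι F) *ᵥ M.v₀ = M.v₀)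
    show (φ (a * b) : Matrix ι ι F) *ᵥ M.v₀ = M.v₀
    rw [map_mul, Units.val_mul, ← mulVec_mulVec, hb, ha]
  inv_mem' := by
    intro a (ha : (φ a : Matrix ι ι F) *ᵥ M.v₀ = M.v₀)
    show (φ a⁻¹ : Matrix ι ι F) *ᵥ M.v₀ = M.v₀
    conv_lhs => rw [← ha]
    rw [mulVec_mulVec, map_inv, Units.inv_mul, one_mulVec]

theorem mem_St {g : SpecialLinearGroup (Fin 5) F} : g ∈ M.St ↔ (φ g : Matrix ι ι F) *ᵥ M.v₀ = M.v₀ := Iff.rfl

theorem UU_le_St : UU F ≤ M.St := by
  refine UU_le fun a b hab s => ?_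
  rw [mem_St, v₀, φω]
  have hb0 : (0 : Fin 5) ≠ b := fun e => by
    rw [← e] at hab
    exact absurd hab (Fin.not_lt_zero a)
  rw [tv_ee hab.ne s hb0]
  rcases eq_or_ne (1 : Fin 5) b with rfl | hb1
  · rw [tv_ee' hab.ne]
    have ha : a = 0 := by
      apply Fin.ext
      have h1 : a.val < 1 := hab
      simp
      omega
    subst ha
    rw [ω_add', ω_smul', ω_self, smul_zero, add_zero]
  · rw [tv_ee hab.ne s hb1]

end Wedge

/-- the transvections with centre `v₀` in `H` -/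
def DD (H : Subgroup (GL ι F)) : Subgroup (GL ι F) where
  carrier := {t | t ∈ H ∧ ∃ f : Module.Dual F (ι → F), ∃ hf : f M.v₀ = 0, t = tg M.v₀ f hf}
  one_mem' := ⟨H.one_mem, 0, rfl, by
    apply Units.ext
    rw [tg_val, tm_zero, Units.val_one]⟩
  mul_mem' := by
    rintro _ _ ⟨ha, f, hf, rfl⟩ ⟨hb, g, hg, rfl⟩
    exact ⟨H.mul_mem ha hb, f + g, _, tg_mul hf hg⟩
  inv_mem' := by
    rintro _ ⟨ha, f, hf, rfl⟩
    exact ⟨H.inv_mem ha, -f, _, tg_inv hf⟩

theorem isPGroup_DD (p : ℕ) [Fact p.Prime] [CharP F p] (H : Subgroup (GL ι F)) : IsPGroup p (DD M H) := by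
  rintro ⟨_, ha, f, hf, rfl⟩
  refine ⟨1, ?_⟩
  apply Subtype.ext
  show (tg M.v₀ f hf) ^ p ^ 1 = 1
  have key : ∀ n : ℕ, ∃ h : (n • f) M.v₀ = 0, (tg M.v₀ f hf) ^ n = tg M.v₀ (n • f) h := by
    intro n
    induction n with
    | zero =>
      refine ⟨by rw [zero_smul]; rfl, ?_⟩
      rw [pow_zero]
      apply Units.ext
      rw [tg_val, zero_smul, tm_zero, Units.val_one]
    | succ n ih =>
      obtain ⟨h, e⟩ := ih
      refine ⟨by rw [succ_nsmul, LinearMap.add_apply, h, hf, add_zero], ?_⟩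
      rw [pow_succ, e, tg_mul]
      apply Units.ext
      rw [tg_val, tg_val, succ_nsmul]
  obtain ⟨h, e⟩ := key (p ^ 1)
  rw [e]
  apply Units.ext
  have h1 : (p ^ 1) • f = 0 := by
    ext w
    rw [pow_one, LinearMap.comp_apply, LinearMap.smul_apply, LinearMap.comp_apply, LinearMap.zero_apply, nsmul_eq_mul, CharP.cast_eq_zero, zero_mul]
  rw [tg_val, h1, tm_zero, Units.val_one]

/-- a fixed point -/
theorem exists_fixed [Finite F] (p : ℕ) [hp : Fact p.Prime] [CharP F p] {H : Subgroup (GL ι F)} (hφ : φ.range ≤ H)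
    (h1 : DD M H ≠ ⊥) : ∃ t ∈ DD M H, t ≠ 1 ∧ ∀ u ∈ UU F, φ u * t = t * φ u := by
  have : Finite (cA 4).Group := finite_W (cA 4).toCoxeterSystem (isCartan 4)
  have R := Nodes.RGDTypeA.rgd (cA 4).toCoxeterSystem (isCartan 4) (F := F) (p := p)
  have hU : IsPGroup p (UU F) := R.isPGroup_Upos
  have hconj : ∀ u ∈ UU F, ∀ t ∈ DD M H, φ u * t * (φ u)⁻¹ ∈ DD M H := by
    rintro u hu _ ⟨ha, f, hf, rfl⟩
    obtain ⟨h2, e⟩ := tg_conj hf (s := φ u) (M.UU_le_St hu) (f' := da (φ u) f) (da_apply _ f)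
    refine ⟨H.mul_mem (H.mul_mem (hφ ⟨u, rfl⟩) ha) (H.inv_mem (hφ ⟨u, rfl⟩)), da (φ u) f, h2, e⟩
  let act : MulAction (UU F) (DD M H) :=
    { smul := fun u t => ⟨φ u * t * (φ u)⁻¹, hconj u u.2 t t.2⟩
      one_smul := by
        intro t
        apply Subtype.ext
        show φ (1 : SpecialLinearGroup (Fin 5) F) * (t : GL ι F) * (φ (1 : SpecialLinearGroup (Fin 5) F))⁻¹ = t
        rw [map_one]
        group
      mul_smul := by
        intro a b t
        apply Subtype.ext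
        show φ (a * b : SpecialLinearGroup (Fin 5) F) * (t : GL ι F) * (φ (a * b : SpecialLinearGroup (Fin 5) F))⁻¹ =
          φ a * (φ b * t * (φ b)⁻¹) * (φ a)⁻¹
        rw [map_mul]
        group }
  obtain ⟨n, hn⟩ := (IsPGroup.iff_card).1 (isPGroup_DD M p H)
  have hdvd : p ∣ Nat.card (DD M H) := by
    rw [hn]
    rcases Nat.eq_zero_or_pos n with rfl | h0
    · exfalso
      apply h1
      rw [pow_zero] at hn
      exact Subgroup.card_eq_one.1 hn
    · exact dvd_pow_self p h0.ne'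
  obtain ⟨b, hb, hne⟩ := hU.exists_fixed_point_of_prime_dvd_card_of_fixed_point (DD M H) hdvd
    (a := (1 : DD M H)) (by
      intro u
      apply Subtype.ext
      show φ u * (1 : GL ι F) * (φ u)⁻¹ = 1
      group)
  refine ⟨b, b.2, fun e => hne (Subtype.ext e.symm), fun u hu => ?_⟩
  have h2 := congrArg Subtype.val (hb ⟨u, hu⟩)
  have h3 : φ u * (b : GL ι F) * (φ u)⁻¹ = b := h2
  rwa [mul_inv_eq_iff_eq_mul] at h3

namespace Wedge

/-- a functional vanishing on the basis vanishes -/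
theorem dual_zero {f : Module.Dual F (ι → F)} (h : ∀ i j : Fin 5, f (M.ω (ee i) (ee j)) = 0) : f = 0 := by
  have h1 : ∀ a b, wd a b ∈ (LinearMap.ker f).map M.L := wd_mem' fun i j =>
    ⟨M.ω (ee i) (ee j), h i j, M.Lω _ _⟩
  have h2 : ∀ a b, M.ω a b ∈ LinearMap.ker f := by
    intro a b
    obtain ⟨w, hw, e⟩ := h1 a b
    have : w = M.ω a b := M.inj (by rw [e, M.Lω])
    rw [← this]
    exact hw
  ext w
  have h3 := M.spn (LinearMap.ker f) h2 (Pi.single w 1)
  exact h3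

/-- **no transvection with centre `v₀` in `H`** -/
theorem DD_eq_bot [Finite F] (p : ℕ) [hp : Fact p.Prime] [CharP F p] {H : Subgroup (GL ι F)} (hφ : φ.range ≤ H)
    (hcent : ∀ t ∈ H, (∀ u ∈ UU F, φ u * t = t * φ u) →
      ∃ (u : SpecialLinearGroup (Fin 5) F) (c : F), (t : Matrix ι ι F) = c • (φ u : Matrix ι ι F)) :
    DD M H = ⊥ := by
  by_contra h1
  obtain ⟨t, ⟨ht, f, hf, rfl⟩, ht1, htU⟩ := exists_fixed M p hφ h1
  apply ht1
  apply Units.ext
  rw [tg_val, Units.val_one]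
  have hfU : ∀ u ∈ UU F, ∀ w, f ((φ u : Matrix ι ι F) *ᵥ w) = f w := by
    intro u hu w
    have h2 := congrArg (fun g : GL ι F => (g : Matrix ι ι F) *ᵥ w) (htU u hu)
    simp only [Units.val_mul, ← mulVec_mulVec, tg_val, tm_mulVec, mulVec_add, mulVec_smul] at h2
    rw [(M.UU_le_St hu : (φ u : Matrix ι ι F) *ᵥ M.v₀ = M.v₀)] at h2
    have h3 := add_left_cancel h2
    exact (smul_left_injective F M.v₀_ne h3).symm
  have hik : ∀ i k l : Fin 5, i ≠ l → k < l → f (M.ω (ee i) (ee k)) = 0 := by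
    intro i k l hil hkl
    have h2 := hfU _ (tv_mem_UU hkl 1) (M.ω (ee i) (ee l))
    rw [φω, tv_ee hkl.ne 1 hil, tv_ee' hkl.ne, ω_add', map_add, one_smul] at h2
    exact add_eq_left.1 h2
  obtain ⟨u, c, e⟩ := hcent _ ht htU
  have h34 : f (M.ω (ee 3) (ee 4)) = 0 := by
    have h2 := congrArg (fun A : Matrix ι ι F => M.L (A *ᵥ M.ω (ee 3) (ee 4))) e
    simp only [tg_val, tm_mulVec, smul_mulVec] at h2
    rw [map_add, map_smul, map_smul, φω, v₀, M.Lω, M.Lω, M.Lω] at h2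
    have key : ∀ i j, (wd (ee 3) (ee 4) + f (M.ω (ee 3) (ee 4)) • wd (ee 0) (ee 1) : Matrix (Fin 5) (Fin 5) F) i j =
        c * ((u.1 *ᵥ ee 3) i * (u.1 *ᵥ ee 4) j - (u.1 *ᵥ ee 4) i * (u.1 *ᵥ ee 3) j) := by
      intro i j
      rw [h2]
      rfl
    set x : Fin 5 → F := u.1 *ᵥ ee 3
    set y : Fin 5 → F := u.1 *ᵥ ee 4
    have k01 := key 0 1
    have k34 := key 3 4
    have k03 := key 0 3
    have k14 := key 1 4
    have k04 := key 0 4
    have k13 := key 1 3
    simp [wd_apply, ee] at k01 k34 k03 k14 k04 k13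
    have hc : c ≠ 0 := by
      rintro rfl
      rw [zero_mul] at k34
      exact one_ne_zero k34
    have k03' := k03.resolve_left hc
    have k04' := k04.resolve_left hc
    show f (M.ω (Pi.single 3 1) (Pi.single 4 1)) = 0
    linear_combination f (M.ω (Pi.single 3 1) (Pi.single 4 1)) * k34 + (c * (x 3 * y 4 - y 3 * x 4)) * k01 +
      c ^ 2 * (x 1 * y 4 - y 1 * x 4) * k03' - c ^ 2 * (x 1 * y 3 - y 1 * x 3) * k04'
  have h0 : f = 0 := by
    apply M.dual_zero
    have hs : ∀ i j, f (M.ω (ee i) (ee j)) = 0 → f (M.ω (ee j) (ee i)) = 0 := by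
      intro i j h
      rw [M.ω_swap, map_neg, h, neg_zero]
    have main : ∀ i j : Fin 5, i < j → f (M.ω (ee i) (ee j)) = 0 := by
      intro i j hij
      have hij' : i.val < j.val := hij
      have hj5 := j.2
      by_cases hj : j = 4
      · subst hj
        by_cases hi : i = 3
        · subst hi; exact h34
        · refine hs _ _ (hik 4 i 3 (by decide) ?_)
          have h3 : i.val ≠ 3 := fun e => hi (Fin.ext e)
          have h4 : i.val < 4 := hij'
          show i.val < 3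
          omega
      · have h4 : j.val ≠ 4 := fun e => hj (Fin.ext e)
        refine hik i j 4 ?_ ?_
        · intro e
          have h5 : i.val = 4 := congrArg Fin.val e
          omega
        · show j.val < 4
          omega
    intro i j
    rcases lt_trichotomy i j with h | rfl | h
    · exact main i j h
    · rw [ω_self, map_zero]
    · exact hs _ _ (main j i h)
  rw [h0, tm_zero]

end Wedge

end wedge

end Cfsg.Agent.H833.TenFive
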